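import Mathlib

set_option autoImplicit false

namespace Cfsg.Agent.A8R
open Subgroup Equiv Equiv.Perm

universe u

/-- the even-sign subgroup of `S₃ × S₅` (literally the group of the statement S3329) -/
abbrev Y0 : Subgroup (Perm (Fin 3) × Perm (Fin 5)) :=
  (((Equiv.Perm.sign).comp (MonoidHom.fst (Equiv.Perm (Fin 3)) (Equiv.Perm (Fin 5)))) *
        ((Equiv.Perm.sign).comp (MonoidHom.snd (Equiv.Perm (Fin 3)) (Equiv.Perm (Fin 5))))).ker

theorem mem_Y0 {p : Perm (Fin 3) × Perm (Fin 5)} : p ∈ Y0 ↔ sign p.1 * sign p.2 = 1 := Iff.rfl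

def ya : Y0 := ⟨(swap 0 1 * swap 1 2, 1), by rw [mem_Y0]; decide⟩
def yb : Y0 := ⟨(1, swap 0 1 * swap 1 2), by rw [mem_Y0]; decide⟩
def yt : Y0 := ⟨(1, swap 0 1 * swap 3 4), by rw [mem_Y0]; decide⟩
def yt' : Y0 := ⟨(swap 0 1, swap 3 4), by rw [mem_Y0]; decide⟩
/-- the four-group on {0,1,2,3} is generated by `p3, q3`, the one on {0,1,2,4} by `pp4, q4` -/
def p3 : Y0 := ⟨(1, swap 0 1 * swap 2 3), by rw [mem_Y0]; decide⟩
def q3 : Y0 := ⟨(1, swap 0 2 * swap 1 3), by rw [mem_Y0]; decide⟩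
def pp4 : Y0 := ⟨(1, swap 0 1 * swap 2 4), by rw [mem_Y0]; decide⟩
def q4 : Y0 := ⟨(1, swap 0 2 * swap 1 4), by rw [mem_Y0]; decide⟩

/-- normalised 3-local data; `z = ψ ya`, `z' = ψ yb`, `D = ⟨z, z'⟩` -/
structure Setup (G : Type u) [Group G] where
  ψ : Y0 →* G
  χ : Y0 →* G
  ψi : Function.Injective ψ
  χi : Function.Injective χ
  ψr : ψ.range = normalizer (zpowers (ψ ya) : Set G)
  χr : χ.range = normalizer (zpowers (χ ya) : Set G)
  ab : χ ya = ψ yb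
  ba : χ yb = ψ ya
  tt : χ yt = ψ yt'
  tt' : χ yt' = ψ yt
  h27 : ¬ 27 ∣ Nat.card G
  cD : centralizer ({ψ ya, ψ yb} : Set G) = closure {ψ ya, ψ yb}
  nD : Nat.card (normalizer (closure {ψ ya, ψ yb} : Subgroup G).carrier) = 72
  cy : ∀ d ∈ closure ({ψ ya, ψ yb} : Set G), d ∉ zpowers (ψ ya) → d ∉ zpowers (ψ yb) →
    centralizer {d} ≤ normalizer (closure {ψ ya, ψ yb} : Subgroup G).carrier
  /-- an involution swapping `ψ yt`, `ψ yt'`, not conjugate to `ψ yt` -/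
  s : G
  ss : s * s = 1
  st : s * ψ yt * s = ψ yt'
  snc : ¬ IsConj s (ψ yt)

abbrev A8 := alternatingGroup (Fin 8)
def u1 : A8 := ⟨swap 0 1 * swap 2 3, by rw [mem_alternatingGroup]; decide⟩
def u2 : A8 := ⟨swap 0 2 * swap 1 3, by rw [mem_alternatingGroup]; decide⟩
def v1 : A8 := ⟨swap 4 5 * swap 6 7, by rw [mem_alternatingGroup]; decide⟩
def v2 : A8 := ⟨swap 4 6 * swap 5 7, by rw [mem_alternatingGroup]; decide⟩

/-- `G` contains `A₈` together with all centralisers of its elements of order 3 -/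
structure Emb (G : Type u) [Group G] where
  φ : A8 →* G
  φi : Function.Injective φ
  hc : ∀ x : A8, orderOf x = 3 → centralizer {φ x} ≤ φ.range
  h27 : ¬ 27 ∣ Nat.card G

/-- (GEN) Feit-Thompson in `C(V)/V` plus coprime action of `⟨z, w⟩`. -/
def GEN : Prop := ∀ (G : Type u) [Group G] [Finite G] (z w : G) (V : Subgroup G),
  orderOf z = 3 → orderOf w = 3 → Commute z w → w ∉ zpowers z →
  IsMulCommutative V → (Nat.card V).Coprime 3 → z ∈ centralizer (V : Set G) → w ∈ normalizer (V : Set G) →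
  (∀ c ∈ centralizer (V : Set G), Commute c z → c ∈ V ⊔ zpowers z) →
  (∀ c ∈ centralizer (V : Set G), c * z * c⁻¹ ≠ z⁻¹) →
  ∃ K : Subgroup G, V ≤ K ∧ K ≤ centralizer (V : Set G) ∧ (Nat.card K).Coprime 3 ∧
    z ∈ normalizer (K : Set G) ∧ w ∈ normalizer (K : Set G) ∧
    centralizer (V : Set G) ≤ K ⊔ zpowers z ∧
    ∀ X : Subgroup G, (∀ d ∈ closure ({z, w} : Set G), d ≠ 1 → K ⊓ centralizer {d} ≤ X) → K ≤ X

/-- (D8L) the dihedral Sylow argument. -/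
def D8L : Prop := ∀ (G : Type u) [Group G] [Finite G] (t t' u s : G),
  t * t = 1 → t' * t' = 1 → u * u = 1 → s * s = 1 → t ≠ 1 → Commute t t' → Commute t u →
  u * t' * u = t * t' → s * t * s = t' →
  IsConj t t' → IsConj t (t * t') → IsConj t u → IsConj t (t * u) → ¬ IsConj s t →
  ∃ c : G, Commute c t ∧ Commute c u ∧ (∃ k : ℕ, c ^ 2 ^ k = 1) ∧ c ∉ closure ({t, u} : Set G)

/-- (COM) the missing relation. -/
def COM : Prop := ∀ (G : Type u) [Group G] [Finite G] (S : Setup G),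
  (Commute (S.ψ pp4) (S.χ p3) ∧ Commute (S.ψ pp4) (S.χ q3) ∧ Commute (S.ψ q4) (S.χ p3) ∧ Commute (S.ψ q4) (S.χ q3)) ∨
  (Commute (S.ψ pp4) (S.χ pp4) ∧ Commute (S.ψ pp4) (S.χ q4) ∧ Commute (S.ψ q4) (S.χ pp4) ∧ Commute (S.ψ q4) (S.χ q4))

/-- (HOM) Moore's presentation. -/
def HOM : Prop := ∀ (G : Type u) [Group G] [Finite G] (S : Setup G),
  ∃ φ : A8 →* G, Function.Injective φ ∧ S.ψ.range ≤ φ.range ∧ S.χ.range ≤ φ.range

def EMB : Prop := ∀ (G : Type u) [Group G] [Finite G], Setup G → Nonempty (Emb G)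

def CENU : Prop := ∀ (G : Type u) [Group G] [Finite G] (E : Emb G) (g : A8),
  centralizer ({E.φ (g * v1 * g⁻¹), E.φ (g * v2 * g⁻¹)} : Set G) ≤ E.φ.range

def NCJ : Prop := ∀ (G : Type u) [Group G] [Finite G] (E : Emb G),
  ¬ IsConj (E.φ (u1 * v1)) (E.φ u1) ∧ ¬ 9 ∣ Nat.card (centralizer ({E.φ (u1 * v1)} : Set G))

def SYL : Prop := ∀ (G : Type u) [Group G] [Finite G], Emb G → ¬ 128 ∣ Nat.card G

def CENS : Prop := ∀ (G : Type u) [Group G] [Finite G] (E : Emb G),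
  centralizer ({E.φ (u1 * v1)} : Set G) ≤ E.φ.range

def FIN : Prop := ∀ (G : Type u) [Group G] [Finite G] (E : Emb G),
  centralizer ({E.φ (u1 * v1)} : Set G) ≤ E.φ.range → Nonempty (G ≃* A8)

def S1 : Prop := ∀ (G : Type u) [Group G] [Finite G] (D : Subgroup G) (z : G),
  orderOf z = 3 → z ∈ D → IsMulCommutative D → Nat.card D = 9 →
  Nonempty (normalizer (zpowers z : Set G) ≃* Y0) →
  ∃ ψ : Y0 →* G, Function.Injective ψ ∧ ψ.range = normalizer (zpowers (ψ ya) : Set G) ∧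
    zpowers (ψ ya) = zpowers z ∧ closure {ψ ya, ψ yb} = D

def S2 : Prop := ∀ (G : Type u) [Group G] [Finite G] (D : Subgroup G) (ψ : Y0 →* G),
  Function.Injective ψ → closure {ψ ya, ψ yb} = D →
  Nonempty (normalizer (D : Set G) ⧸ D.subgroupOf (normalizer (D : Set G)) ≃* DihedralGroup 4) →
  ∃ s : G, s * s = 1 ∧ s * ψ yt * s = ψ yt' ∧ s * ψ ya * s = ψ yb

end Cfsg.Agent.A8R
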