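import Mathlib
import Cfsg.Agent.A8R.Def

set_option autoImplicit false
set_option maxRecDepth 100000

namespace Cfsg.Agent.A8R
open Subgroup Equiv Equiv.Perm

universe u

def cuA : A8 := ⟨swap 0 1 * swap 1 2, by rw [mem_alternatingGroup]; decide⟩
def cuB : A8 := ⟨swap 4 5 * swap 5 6, by rw [mem_alternatingGroup]; decide⟩
def cuI : A8 := ⟨swap 0 1 * swap 4 5, by rw [mem_alternatingGroup]; decide⟩

def cuF (x0 x3 x4 : Fin 8) : Fin 8 → Fin 8 :=
  ![x0, cuA.1 x0, cuA.1 (cuA.1 x0), x3, x4, v1.1 x4, v2.1 x4, v1.1 (v2.1 x4)]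

theorem cu_key : ∀ x0 x3 x4 : Fin 8, (∀ i j, cuF x0 x3 x4 i = cuF x0 x3 x4 j → i = j) →
    (∀ i, cuF x0 x3 x4 (cuA.1 i) = cuA.1 (cuF x0 x3 x4 i)) →
    (∀ i, cuF x0 x3 x4 (v1.1 i) = v1.1 (cuF x0 x3 x4 i)) →
    ∃ i : Fin 3, ∃ j k : Fin 2, ∀ t, cuF x0 x3 x4 t = (v1.1 ^ j.1 * v2.1 ^ k.1 * cuA.1 ^ i.1) t := by
  decide +kernel

theorem cu_cent (x : Perm (Fin 8)) (ha : x * cuA.1 = cuA.1 * x) (h1 : x * v1.1 = v1.1 * x)
    (h2 : x * v2.1 = v2.1 * x) :
    ∃ i j k : ℕ, x = (v1 ^ j * v2 ^ k * cuA ^ i : A8).1 := by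
  have ea : ∀ t, x (cuA.1 t) = cuA.1 (x t) := fun t => congrArg (fun f : Perm (Fin 8) => f t) ha
  have e1 : ∀ t, x (v1.1 t) = v1.1 (x t) := fun t => congrArg (fun f : Perm (Fin 8) => f t) h1
  have e2 : ∀ t, x (v2.1 t) = v2.1 (x t) := fun t => congrArg (fun f : Perm (Fin 8) => f t) h2
  have hF : cuF (x 0) (x 3) (x 4) = x := by
    funext t
    fin_cases t
    · rfl
    · exact (ea 0).symm
    · exact ((ea 1).trans (congrArg _ (ea 0))).symm
    · rfl
    · rfl
    · exact (e1 4).symm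
    · exact (e2 4).symm
    · exact ((e1 6).trans (congrArg _ (e2 4))).symm
  obtain ⟨i, j, k, h⟩ := cu_key (x 0) (x 3) (x 4) (by rw [hF]; exact fun i j h => x.injective h)
    (by rw [hF]; exact ea) (by rw [hF]; exact e1)
  rw [hF] at h
  exact ⟨i, j, k, Equiv.ext h⟩

theorem cu_one (hg : GEN.{u}) (G : Type u) [Group G] [Finite G] (E : Emb G) :
    centralizer ({E.φ v1, E.φ v2} : Set G) ≤ E.φ.range := by
  haveI : Fact (Nat.Prime 3) := ⟨Nat.prime_three⟩
  haveI : Fact (Nat.Prime 2) := ⟨Nat.prime_two⟩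
  have oa : orderOf cuA = 3 := orderOf_eq_prime (by decide) (by decide)
  have ob : orderOf cuB = 3 := orderOf_eq_prime (by decide) (by decide)
  have cab : Commute cuA cuB := by unfold Commute SemiconjBy; decide
  have c12 : Commute v1 v2 := by unfold Commute SemiconjBy; decide
  have hcl : ∀ c : G, c ∈ centralizer ((closure {E.φ v1, E.φ v2} : Subgroup G) : Set G) ↔
      E.φ v1 * c = c * E.φ v1 ∧ E.φ v2 * c = c * E.φ v2 := fun c => by
    rw [centralizer_closure, mem_centralizer_iff]; simp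
  have hV : (closure {E.φ v1, E.φ v2} : Subgroup G) = (closure {v1, v2}).map E.φ := by
    rw [MonoidHom.map_closure]; simp [Set.image_pair]
  have hcomm : IsMulCommutative (closure {E.φ v1, E.φ v2} : Subgroup G) := by
    refine ⟨⟨fun a b => Subtype.ext ?_⟩⟩
    have : closure {E.φ v1, E.φ v2} ≤ centralizer ((closure {E.φ v1, E.φ v2} : Subgroup G) : Set G) := by
      rw [closure_le]
      rintro y (rfl | rfl)
      · exact (hcl _).2 ⟨rfl, (c12.map E.φ).eq.symm⟩
      · exact (hcl _).2 ⟨(c12.map E.φ).eq, rfl⟩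
    exact this b.2 a a.2
  have hsq : ∀ y ∈ (closure {E.φ v1, E.φ v2} : Subgroup G), y ^ 2 = 1 := fun y hy => by
    induction hy using closure_induction with
    | mem y hy =>
      rcases hy with rfl | rfl
      · rw [← map_pow, show v1 ^ 2 = 1 by decide, map_one]
      · rw [← map_pow, show v2 ^ 2 = 1 by decide, map_one]
    | one => simp
    | mul a b ha hb iha ihb =>
      have : Commute a b := congrArg Subtype.val (hcomm.is_comm.comm ⟨a, ha⟩ ⟨b, hb⟩)
      rw [this.mul_pow, iha, ihb, one_mul]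
    | inv a ha ih => rw [inv_pow, ih, inv_one]
  have hp : IsPGroup 2 (closure {E.φ v1, E.φ v2} : Subgroup G) := fun y =>
    ⟨1, Subtype.ext (by simpa using hsq y y.2)⟩
  obtain ⟨K, -, -, -, -, -, hK, hX⟩ := hg G (E.φ cuA) (E.φ cuB) (closure {E.φ v1, E.φ v2})
    (by rw [orderOf_injective _ E.φi, oa]) (by rw [orderOf_injective _ E.φi, ob]) (cab.map _)
    (by
      rintro ⟨k, hk⟩
      simp only at hk
      rw [← map_zpow] at hk
      have h1 := E.φi hk
      have h2 : (cuA ^ k).1 4 = 4 := by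
        rw [Subgroup.coe_zpow]
        exact zpow_apply_eq_self_of_apply_eq_self (by decide) k
      rw [h1] at h2
      revert h2; decide)
    hcomm
    (by obtain ⟨n, hn⟩ := hp.exists_card_eq; rw [hn]; exact Nat.Coprime.pow_left _ (by norm_num))
    ((hcl _).2 ⟨by rw [← map_mul, ← map_mul]; congr 1; decide,
      by rw [← map_mul, ← map_mul]; congr 1; decide⟩)
    (by
      rw [hV]
      refine le_normalizer_map _ ⟨cuB, ?_, rfl⟩
      refine mem_normalizer_fintype fun n hn => ?_
      induction hn using closure_induction with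
      | mem y hy =>
        have m1 : v1 ∈ closure ({v1, v2} : Set A8) := subset_closure (by simp)
        have m2 : v2 ∈ closure ({v1, v2} : Set A8) := subset_closure (by simp)
        rcases hy with rfl | rfl
        · rw [show cuB * v1 * cuB⁻¹ = v1 * v2 by decide]; exact mul_mem m1 m2
        · rw [show cuB * v2 * cuB⁻¹ = v1 by decide]; exact m1
      | one => simp
      | mul a b _ _ iha ihb =>
        rw [show cuB * (a * b) * cuB⁻¹ = cuB * a * cuB⁻¹ * (cuB * b * cuB⁻¹) by group]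
        exact mul_mem iha ihb
      | inv a _ ih =>
        rw [show cuB * a⁻¹ * cuB⁻¹ = (cuB * a * cuB⁻¹)⁻¹ by group]
        exact inv_mem ih)
    (fun c hc hcz => by
      obtain ⟨x, rfl⟩ := E.hc cuA oa (show c ∈ _ from mem_centralizer_singleton_iff.mpr hcz.eq)
      obtain ⟨h1, h2⟩ := (hcl _).1 hc
      rw [← map_mul, ← map_mul] at h1 h2
      have h3 := hcz.eq
      rw [← map_mul, ← map_mul] at h3
      obtain ⟨i, j, k, h⟩ := cu_cent x.1 (congrArg Subtype.val (E.φi h3))
        (congrArg Subtype.val (E.φi h1)).symm (congrArg Subtype.val (E.φi h2)).symm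
      rw [Subtype.ext h, map_mul, map_mul, map_pow, map_pow, map_pow]
      exact mul_mem (mem_sup_left (mul_mem (pow_mem (subset_closure (by simp)) _)
        (pow_mem (subset_closure (by simp)) _))) (mem_sup_right (pow_mem (mem_zpowers _) _)))
    (fun c hc hcz => by
      have hi : E.φ cuI * E.φ cuA * (E.φ cuI)⁻¹ = (E.φ cuA)⁻¹ := by
        rw [← map_inv, ← map_inv, ← map_mul, ← map_mul]; congr 1; decide
      obtain ⟨x0, hx0⟩ := E.hc cuA oa (show (E.φ cuI)⁻¹ * c ∈ _ from
        mem_centralizer_singleton_iff.mpr (by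
          calc (E.φ cuI)⁻¹ * c * E.φ cuA = (E.φ cuI)⁻¹ * (c * E.φ cuA * c⁻¹) * c := by group
            _ = (E.φ cuI)⁻¹ * (E.φ cuI * E.φ cuA * (E.φ cuI)⁻¹) * c := by rw [hcz, hi]
            _ = _ := by group))
      obtain ⟨x, rfl⟩ : ∃ x, E.φ x = c := ⟨cuI * x0, by rw [map_mul, hx0]; group⟩
      obtain ⟨h1, h2⟩ := (hcl _).1 hc
      rw [← map_mul, ← map_mul] at h1 h2
      rw [← map_inv, ← map_inv, ← map_mul, ← map_mul] at hcz
      have h3 : x.1 * cuA.1 * x.1⁻¹ = cuA.1⁻¹ := congrArg Subtype.val (E.φi hcz)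
      have h4 : v1.1 * x.1 = x.1 * v1.1 := congrArg Subtype.val (E.φi h1)
      have h5 : v2.1 * x.1 = x.1 * v2.1 := congrArg Subtype.val (E.φi h2)
      have t1 : swap (0 : Fin 8) 1 * cuA.1⁻¹ = cuA.1 * swap 0 1 := by decide
      have t2 : swap (0 : Fin 8) 1 * v1.1 = v1.1 * swap 0 1 := by decide
      have t3 : swap (0 : Fin 8) 1 * v2.1 = v2.1 * swap 0 1 := by decide
      obtain ⟨i, j, k, h⟩ := cu_cent (swap 0 1 * x.1)
        (by rw [← mul_assoc, ← t1, ← h3]; group)
        (by rw [mul_assoc, ← h4, ← mul_assoc, t2, mul_assoc])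
        (by rw [mul_assoc, ← h5, ← mul_assoc, t3, mul_assoc])
      have h6 := congrArg sign h
      rw [mem_alternatingGroup.mp (v1 ^ j * v2 ^ k * cuA ^ i : A8).2, map_mul,
        mem_alternatingGroup.mp x.2, sign_swap (by decide)] at h6
      revert h6; decide)
  rw [centralizer_closure] at hK
  refine hK.trans (sup_le (hX _ fun d hd hd1 => ?_) ?_)
  · have : closure ({E.φ cuA, E.φ cuB} : Set G) = (closure {cuA, cuB}).map E.φ := by
      rw [MonoidHom.map_closure]; simp [Set.image_pair]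
    rw [this] at hd
    obtain ⟨y, hy, rfl⟩ := hd
    refine inf_le_right.trans (E.hc y (orderOf_eq_prime ?_ fun e => hd1 (by rw [e, map_one])))
    have hcm : closure ({cuA, cuB} : Set A8) ≤ centralizer (closure ({cuA, cuB} : Set A8) : Set A8) := by
      rw [centralizer_closure, closure_le]
      rintro y (rfl | rfl) z (rfl | rfl)
      exacts [rfl, cab.eq.symm, cab.eq, rfl]
    clear hd1
    induction hy using closure_induction with
    | mem y hy => rcases hy with rfl | rfl <;> decide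
    | one => simp
    | mul a b ha hb iha ihb =>
      have : Commute a b := hcm hb a ha
      rw [this.mul_pow, iha, ihb, one_mul]
    | inv a ha ih => rw [inv_pow, ih, inv_one]
  · rw [zpowers_le]; exact ⟨_, rfl⟩

theorem cenU (hg : GEN.{u}) : CENU.{u} := fun G _ _ E g => by
  have hr : (E.φ.comp (MulAut.conj g).toMonoidHom).range = E.φ.range := by
    rw [MonoidHom.range_comp, MonoidHom.range_eq_top.mpr (MulAut.conj g).surjective,
      ← MonoidHom.range_eq_map]
  have := cu_one hg G ⟨E.φ.comp (MulAut.conj g).toMonoidHom, E.φi.comp (MulAut.conj g).injective,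
    fun x hx => by
      rw [hr]
      exact E.hc (MulAut.conj g x) (by rw [MulEquiv.orderOf_eq, hx]), E.h27⟩
  exact this.trans hr.le

end Cfsg.Agent.A8R
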