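import Cfsg.Agent.A8R.Def

set_option autoImplicit false
set_option maxRecDepth 100000

namespace Cfsg.Agent.A8R
open Subgroup Equiv Equiv.Perm

universe u

def cmU : Y0 := ⟨(1, swap 0 3 * swap 1 4), by rw [mem_Y0]; decide⟩
def cmG : Y0 := ⟨(swap 0 1, swap 2 3), by rw [mem_Y0]; decide⟩
def cmH : Y0 := ⟨(1, swap 0 1 * swap 1 3), by rw [mem_Y0]; decide⟩

theorem cm_a : ∀ a : Perm (Fin 3), a * ya.1.1 = ya.1.1 * a → a ^ 3 = 1 := by decide +kernel
theorem cm_a' : ∀ a : Perm (Fin 3), sign a = 1 → a * ya.1.1 = ya.1.1 * a := by decide +kernel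
theorem cm_a2 : ∀ a : Perm (Fin 3), a ^ 3 = 1 → a = 1 ∨ a = ya.1.1 ∨ a = ya.1.1 * ya.1.1 := by decide +kernel
theorem cm_b : ∀ b : Perm (Fin 5), b * pp4.1.2 = pp4.1.2 * b → b * q4.1.2 = q4.1.2 * b →
    b = 1 ∨ b = pp4.1.2 ∨ b = q4.1.2 ∨ b = pp4.1.2 * q4.1.2 := by decide +kernel

def cmC (b : Perm (Fin 5)) : Perm (Fin 5) := yb.1.2 * b * yb.1.2⁻¹
def cmIn (x b : Perm (Fin 5)) : Prop := x = b ∨ x = cmC b ∨ x = cmC (cmC b)
instance (x b : Perm (Fin 5)) : Decidable (cmIn x b) := by unfold cmIn; infer_instance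
def cmO (x : Perm (Fin 5)) : Prop := x ≠ 1 ∧ x ^ 3 = 1
instance (x : Perm (Fin 5)) : Decidable (cmO x) := by unfold cmO; infer_instance

theorem cm_w : ∀ b : Perm (Fin 5), sign b = 1 → b ≠ 1 → (cmIn p3.1.2 b ∧ cmIn q3.1.2 b) ∨
    (cmIn pp4.1.2 b ∧ cmIn q4.1.2 b) ∨ cmO (b * b * b * cmC b) ∨ cmO (b * b * cmC b) ∨
    cmO (b * cmC b * b * cmC (cmC b)) := by decide +kernel

theorem cm_one {G : Type*} [Group G] {x : G} {n : ℕ} (hn : n.Coprime 3) (h1 : x ^ n = 1) (h2 : x ^ 3 = 1) :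
    x = 1 := by
  have := pow_gcd_eq_one.2 ⟨h1, h2⟩
  rwa [hn, pow_one] at this

theorem cm_nrm {G : Type*} [Group G] [Finite G] {z c : G} (h : c * z * c⁻¹ ∈ zpowers z) :
    c ∈ normalizer (zpowers z : Set G) := by
  refine mem_normalizer_fintype ?_
  rintro _ ⟨i, rfl⟩
  simp only
  rw [← conj_zpow]
  exact zpow_mem h i

theorem cm_cz {G : Type*} [Group G] {z d k : G} (hz : orderOf z = 3) (hd : d ∈ zpowers z) (h1 : d ≠ 1)
    (h : Commute k d) : Commute k z := by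
  haveI : Fact (Nat.Prime 3) := ⟨by norm_num⟩
  obtain ⟨i, hi⟩ := mem_zpowers_of_prime_card (G := zpowers z) (p := 3) (by rw [Nat.card_zpowers, hz])
    (g := ⟨d, hd⟩) (g' := ⟨z, mem_zpowers z⟩) (fun e => h1 (congrArg Subtype.val e))
  have e : d ^ i = z := congrArg Subtype.val hi
  rw [← e]
  exact h.zpow_right i

theorem cm_ord {G : Type*} [Group G] {f : Y0 →* G} (hf : Function.Injective f) {y : Y0} (h1 : y ^ 3 = 1)
    (h2 : y ≠ 1) : orderOf (f y) = 3 := by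
  rw [orderOf_injective f hf]
  exact orderOf_eq_prime (hp := ⟨by norm_num⟩) h1 h2

theorem com (g : GEN.{u}) (d : D8L.{u}) : COM.{u} := by
  intro G _ _ S
  have ψi := S.ψi
  let V : Subgroup G := closure {S.ψ pp4, S.ψ q4}
  have hp : S.ψ pp4 ∈ V := subset_closure (by simp)
  have hq : S.ψ q4 ∈ V := subset_closure (by simp)
  have hz : orderOf (S.ψ ya) = 3 := cm_ord ψi (by decide) (by decide)
  have hw : orderOf (S.ψ yb) = 3 := cm_ord ψi (by decide) (by decide)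
  have cm : ∀ a b : Y0, a * b = b * a → Commute (S.ψ a) (S.ψ b) := fun a b h => by
    rw [Commute, SemiconjBy, ← map_mul, ← map_mul, h]
  have cV : ∀ c, c ∈ centralizer (V : Set G) ↔ Commute c (S.ψ pp4) ∧ Commute c (S.ψ q4) := fun c => by
    rw [centralizer_closure]
    simp only [mem_centralizer_iff, Set.mem_insert_iff, Set.mem_singleton_iff, forall_eq_or_imp, forall_eq]
    exact and_congr ⟨fun h => h.symm, fun h => h.symm⟩ ⟨fun h => h.symm, fun h => h.symm⟩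
  have VV : V ≤ centralizer (V : Set G) := (closure_le _).2 (by
    rintro _ (rfl | rfl)
    · exact (cV _).2 ⟨rfl, cm _ _ (by decide)⟩
    · exact (cV _).2 ⟨cm _ _ (by decide), rfl⟩)
  have zV : S.ψ ya ∈ centralizer (V : Set G) := (cV _).2 ⟨cm _ _ (by decide), cm _ _ (by decide)⟩
  have V2 : ∀ x ∈ V, x ^ 2 = 1 := fun x hx => by
    induction hx using closure_induction with
    | mem x hx =>
      rcases hx with rfl | rfl
      · rw [← map_pow, show pp4 ^ 2 = 1 by decide, map_one]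
      · rw [← map_pow, show q4 ^ 2 = 1 by decide, map_one]
    | one => simp
    | mul x y hx hy h1 h2 => rw [Commute.mul_pow (VV hy x hx), h1, h2, one_mul]
    | inv x _ h => rw [inv_pow, h, inv_one]
  -- elements normalising `⟨z⟩` and centralising `V`
  have key : ∀ c ∈ centralizer (V : Set G), c * S.ψ ya * c⁻¹ ∈ zpowers (S.ψ ya) →
      ∃ y : Y0, S.ψ y = c ∧ y.1.1 ^ 3 = 1 ∧ ∃ v ∈ V, ∃ a : Y0, a.1 = (y.1.1, 1) ∧ c = S.ψ a * v := fun c hc h => by
    obtain ⟨y, rfl⟩ : c ∈ S.ψ.range := S.ψr ▸ cm_nrm h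
    obtain ⟨h1, h2⟩ := (cV _).1 hc
    have e1 : y * pp4 = pp4 * y := ψi (by rw [map_mul, map_mul]; exact h1)
    have e2 : y * q4 = q4 * y := ψi (by rw [map_mul, map_mul]; exact h2)
    have hb := cm_b y.1.2 (congrArg (fun t : Y0 => t.1.2) e1) (congrArg (fun t : Y0 => t.1.2) e2)
    have s2 : sign y.1.2 = 1 := by rcases hb with h | h | h | h <;> rw [h] <;> decide
    have s1 : sign y.1.1 = 1 := by simpa [s2] using mem_Y0.1 y.2
    refine ⟨y, rfl, cm_a _ (cm_a' _ s1), S.ψ ⟨(1, y.1.2), by simp [mem_Y0, s2]⟩, ?_,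
      ⟨(y.1.1, 1), by simp [mem_Y0, s1]⟩, rfl, ?_⟩
    · rcases hb with h | h | h | h
      · have : ∀ k, (⟨(1, y.1.2), k⟩ : Y0) = 1 := fun k => Subtype.ext (Prod.ext rfl h)
        rw [this, map_one]; exact one_mem V
      · have : ∀ k, (⟨(1, y.1.2), k⟩ : Y0) = pp4 := fun k => Subtype.ext (Prod.ext rfl h)
        rw [this]; exact hp
      · have : ∀ k, (⟨(1, y.1.2), k⟩ : Y0) = q4 := fun k => Subtype.ext (Prod.ext rfl h)
        rw [this]; exact hq
      · have : ∀ k, (⟨(1, y.1.2), k⟩ : Y0) = pp4 * q4 := fun k => Subtype.ext (Prod.ext (mul_one _).symm h)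
        rw [this, map_mul]; exact mul_mem hp hq
    · rw [← map_mul]; exact congrArg _ (Subtype.ext (Prod.ext (mul_one _).symm (one_mul _).symm))
  have cz : ∀ c : G, Commute c (S.ψ ya) → c * S.ψ ya * c⁻¹ ∈ zpowers (S.ψ ya) := fun c h => by
    rw [h.eq, mul_inv_cancel_right]; exact mem_zpowers _
  have L : ∀ k ∈ centralizer (V : Set G), Commute k (S.ψ ya) → ∀ n : ℕ, n.Coprime 3 → k ^ n = 1 → k ∈ V :=
    fun k hk h n hn e => by
      obtain ⟨y, rfl, h3, v, hv, a, ha, e2⟩ := key k hk (cz k h)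
      have e3 : y ^ n = 1 := ψi (by rw [map_pow, e, map_one])
      have e4 : y.1.1 = 1 := cm_one hn (congrArg (fun t : Y0 => t.1.1) e3) h3
      have e5 : a = 1 := Subtype.ext (by rw [ha, e4]; rfl)
      rw [e2, e5, map_one, one_mul]; exact hv
  obtain ⟨K, -, KC, Kc, zK, -, CK, hK⟩ := g G (S.ψ ya) (S.ψ yb) V hz hw (cm _ _ (by decide))
    (by
      rintro ⟨i, hi⟩
      have e : ya ^ i = yb := ψi (by rw [map_zpow]; exact hi)
      have e2 : (1 : Perm (Fin 5)) ^ i = yb.1.2 := congrArg (fun t : Y0 => t.1.2) e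
      rw [one_zpow] at e2
      exact absurd e2 (by decide))
    ⟨⟨fun a b => Subtype.ext (VV b.2 a a.2)⟩⟩
    (by
      haveI : Fact (Nat.Prime 2) := ⟨by norm_num⟩
      obtain ⟨k, hk⟩ := IsPGroup.iff_card.1 (show IsPGroup 2 V from fun x => ⟨1, Subtype.ext (V2 x x.2)⟩)
      rw [hk]; exact Nat.Coprime.pow_left _ (by norm_num)) zV
    (by
      refine mem_normalizer_fintype fun x hx => ?_
      induction hx using closure_induction with
      | mem x hx =>
        rcases hx with rfl | rfl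
        · rw [← map_inv, ← map_mul, ← map_mul, show yb * pp4 * yb⁻¹ = pp4 * q4 by decide, map_mul]
          exact mul_mem hp hq
        · rw [← map_inv, ← map_mul, ← map_mul, show yb * q4 * yb⁻¹ = pp4 by decide]
          exact hp
      | one => simp
      | mul x y _ _ h1 h2 => rw [← conj_mul]; exact mul_mem h1 h2
      | inv x _ h => rw [← conj_inv]; exact inv_mem h)
    (fun c hc h => by
      obtain ⟨y, rfl, h3, v, hv, a, ha, e2⟩ := key c hc (cz c h)
      rw [e2]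
      refine mul_mem (mem_sup_right ?_) (mem_sup_left hv)
      rcases cm_a2 _ h3 with h | h | h
      · rw [show a = 1 from Subtype.ext (by rw [ha, h]; rfl), map_one]; exact one_mem _
      · rw [show a = ya from Subtype.ext (by rw [ha, h]; rfl)]; exact mem_zpowers _
      · rw [show a = ya * ya from Subtype.ext (by rw [ha, h]; rfl), map_mul]
        exact mul_mem (mem_zpowers _) (mem_zpowers _))
    (fun c hc h => by
      obtain ⟨y, rfl, h3, -⟩ := key c hc (h ▸ inv_mem (mem_zpowers _))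
      have e : y * ya * y⁻¹ = ya⁻¹ := ψi (by rw [map_mul, map_mul, map_inv, map_inv]; exact h)
      have e2 : y.1.1 * ya.1.1 * y.1.1⁻¹ = ya.1.1⁻¹ := congrArg (fun t : Y0 => t.1.1) e
      rcases cm_a2 _ h3 with h | h | h <;> rw [h] at e2 <;> exact absurd e2 (by decide))
  have Kn : ∀ k ∈ K, k ^ Nat.card K = 1 := fun k hk =>
    congrArg Subtype.val (pow_card_eq_one' (G := K) (x := ⟨k, hk⟩))
  have mm : ∀ a b c : Y0, a * b = c → S.ψ a * S.ψ b = S.ψ c := fun a b c h => by rw [← map_mul, h]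
  have cj : ∀ a b c : Y0, a * b * a⁻¹ = c → IsConj (S.ψ b) (S.ψ c) := fun a b c h =>
    isConj_iff.2 ⟨S.ψ a, by rw [← map_inv, ← map_mul, ← map_mul, h]⟩
  have c1 : IsConj (S.ψ yt) (S.ψ yt') := isConj_iff.2 ⟨S.s, by
    rw [← S.st, inv_eq_of_mul_eq_one_right S.ss]⟩
  obtain ⟨c, k1, k2, ⟨k, k3⟩, k4⟩ := d G (S.ψ yt) (S.ψ yt') (S.ψ cmU) S.s
    ((mm _ _ 1 (by decide)).trans (map_one _)) ((mm _ _ 1 (by decide)).trans (map_one _))
    ((mm _ _ 1 (by decide)).trans (map_one _)) S.ss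
    (fun h => absurd (ψi (h.trans (map_one _).symm)) (by decide)) (cm _ _ (by decide)) (cm _ _ (by decide))
    (by rw [← map_mul, ← map_mul, ← map_mul]; exact congrArg _ (by decide)) S.st c1
    (by rw [← map_mul]; exact c1.trans (cj cmU _ _ (by decide)))
    (by first | exact cj cmH _ _ (by decide) | exact cj cmH⁻¹ _ _ (by decide))
    (by rw [← map_mul]; first | exact cj cmH _ _ (by decide) | exact cj cmH⁻¹ _ _ (by decide)) S.snc
  have ep : S.ψ pp4 = S.ψ cmG * S.ψ yt * (S.ψ cmG)⁻¹ := by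
    rw [← map_inv, ← map_mul, ← map_mul]; exact congrArg _ (by decide)
  have eq : S.ψ q4 = S.ψ cmG * S.ψ cmU * (S.ψ cmG)⁻¹ := by
    rw [← map_inv, ← map_mul, ← map_mul]; exact congrArg _ (by decide)
  have nK : ¬ K ≤ V := fun h => by
    have c2 : S.ψ cmG * c * (S.ψ cmG)⁻¹ ∈ centralizer (V : Set G) :=
      (cV _).2 ⟨ep ▸ k1.conj _, eq ▸ k2.conj _⟩
    have c3 : K ⊔ zpowers (S.ψ ya) ≤ centralizer {S.ψ ya} := sup_le
      (fun x hx => mem_centralizer_singleton_iff.2 (zV x (h hx)))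
      ((zpowers_le).2 (mem_centralizer_singleton_iff.2 rfl))
    have c4 := L _ c2 (mem_centralizer_singleton_iff.1 (c3 (CK c2))) (2 ^ k)
      (Nat.Coprime.pow_left _ (by norm_num)) (by rw [conj_pow, k3]; simp)
    have c5 : V ≤ (closure ({S.ψ yt, S.ψ cmU} : Set G)).map (MulAut.conj (S.ψ cmG)).toMonoidHom :=
      (closure_le _).2 (by
        rintro _ (rfl | rfl)
        · exact ⟨_, subset_closure (by simp), ep.symm⟩
        · exact ⟨_, subset_closure (by simp), eq.symm⟩)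
    obtain ⟨x, hx, e⟩ := c5 c4
    have : x = c := (MulAut.conj (S.ψ cmG)).injective e
    exact k4 (this ▸ hx)
  by_contra hno
  refine nK (hK V fun e he e1 x ⟨hx, hx'⟩ => ?_)
  have hc : Commute x e := mem_centralizer_singleton_iff.1 hx'
  by_cases a1 : e ∈ zpowers (S.ψ ya)
  · exact L x (KC hx) (cm_cz hz a1 e1 hc) _ Kc (Kn x hx)
  by_cases a2 : e ∈ zpowers (S.ψ yb)
  · have a3 : Commute x (S.χ ya) := S.ab ▸ cm_cz hw a2 e1 hc
    obtain ⟨y, rfl⟩ : x ∈ S.χ.range := S.χr ▸ cm_nrm (by rw [a3.eq, mul_inv_cancel_right]; exact mem_zpowers _)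
    have b1 : y * ya = ya * y := S.χi (by rw [map_mul, map_mul]; exact a3)
    have b2 : y ^ Nat.card K = 1 := S.χi (by rw [map_pow, Kn _ hx, map_one])
    have b3 : y.1.1 = 1 := cm_one Kc (congrArg (fun t : Y0 => t.1.1) b2)
      (cm_a _ (congrArg (fun t : Y0 => t.1.1) b1))
    have b4 : sign y.1.2 = 1 := by simpa [b3] using mem_Y0.1 y.2
    let P : Perm (Fin 5) → Prop := fun b => ∃ t : Y0, t.1 = (1, b) ∧ S.χ t ∈ K
    have P0 : P y.1.2 := ⟨y, Prod.ext b3 rfl, hx⟩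
    have Pm : ∀ {a b}, P a → P b → P (a * b) := fun ⟨s, s1, s2⟩ ⟨t, t1, t2⟩ =>
      ⟨s * t, by rw [Subgroup.coe_mul, s1, t1]; simp, map_mul S.χ s t ▸ mul_mem s2 t2⟩
    have Pc : ∀ {a}, P a → P (cmC a) := fun ⟨s, s1, s2⟩ => ⟨yb * s * yb⁻¹, by
      rw [Subgroup.coe_mul, Subgroup.coe_mul, Subgroup.coe_inv, s1]; exact Prod.ext (by simp [yb]) rfl, by
      rw [map_mul, map_mul, map_inv, S.ba]; exact (mem_normalizer_iff.1 zK _).1 s2⟩
    have Po : ∀ {a}, P a → ¬ cmO a := fun ⟨s, s1, s2⟩ ⟨o1, o2⟩ => by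
      have : s ^ Nat.card K = 1 := S.χi (by rw [map_pow, Kn _ s2, map_one])
      have h2 := congrArg (fun t : Y0 => t.1.2) this
      simp only [Subgroup.coe_pow, s1, Prod.pow_snd] at h2
      exact o1 (cm_one Kc h2 o2)
    have Pi : ∀ t : Y0, t.1.1 = 1 → cmIn t.1.2 y.1.2 →
        Commute (S.ψ pp4) (S.χ t) ∧ Commute (S.ψ q4) (S.χ t) := fun t t1 h => by
      have : P t.1.2 := by
        rcases h with h | h | h <;> rw [h]
        exacts [P0, Pc P0, Pc (Pc P0)]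
      obtain ⟨s, s1, s2⟩ := this
      rw [show t = s from Subtype.ext (s1 ▸ Prod.ext t1 rfl)]
      exact ⟨((cV _).1 (KC s2)).1.symm, ((cV _).1 (KC s2)).2.symm⟩
    by_cases y1 : y.1.2 = 1
    · rw [show y = 1 from Subtype.ext (Prod.ext b3 y1), map_one]; exact one_mem _
    exfalso
    rcases cm_w _ b4 y1 with ⟨h1, h2⟩ | ⟨h1, h2⟩ | h | h | h
    · exact hno (Or.inl ⟨(Pi p3 rfl h1).1, (Pi q3 rfl h2).1, (Pi p3 rfl h1).2, (Pi q3 rfl h2).2⟩)
    · exact hno (Or.inr ⟨(Pi pp4 rfl h1).1, (Pi q4 rfl h2).1, (Pi pp4 rfl h1).2, (Pi q4 rfl h2).2⟩)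
    · exact Po (Pm (Pm (Pm P0 P0) P0) (Pc P0)) h
    · exact Po (Pm (Pm P0 P0) (Pc P0)) h
    · exact Po (Pm (Pm (Pm P0 (Pc P0)) P0) (Pc (Pc P0))) h
  · have n1 := S.cy e he a1 a2 hx'
    have zD : S.ψ ya ∈ closure ({S.ψ ya, S.ψ yb} : Set G) := subset_closure (by simp)
    have D3 : ∀ x ∈ closure ({S.ψ ya, S.ψ yb} : Set G), x ^ 3 = 1 := fun x hx => by
      induction hx using closure_induction with
      | mem x hx =>
        rcases hx with rfl | rfl
        · exact orderOf_dvd_iff_pow_eq_one.1 hz.dvd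
        · exact orderOf_dvd_iff_pow_eq_one.1 hw.dvd
      | one => simp
      | mul x y hx hy h1 h2 =>
        rw [← S.cD, ← centralizer_closure] at hy
        rw [Commute.mul_pow (hy x hx), h1, h2, one_mul]
      | inv x _ h => rw [inv_pow, h, inv_one]
    have m1 : x * S.ψ ya * x⁻¹ * (S.ψ ya)⁻¹ ∈ closure ({S.ψ ya, S.ψ yb} : Set G) :=
      mul_mem ((mem_normalizer_iff.1 n1 _).1 zD) (inv_mem zD)
    have m2 : x * S.ψ ya * x⁻¹ * (S.ψ ya)⁻¹ ∈ K := by
      simpa only [mul_assoc] using K.mul_mem hx ((mem_normalizer_iff.1 zK _).1 (K.inv_mem hx))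
    have m3 := cm_one Kc (Kn _ m2) (D3 _ m1)
    refine L x (KC hx) ?_ _ Kc (Kn x hx)
    rwa [mul_inv_eq_one, mul_inv_eq_iff_eq_mul] at m3

end Cfsg.Agent.A8R
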