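import Mathlib
import Cfsg.Agent.A8R.Def

set_option autoImplicit false
set_option backward.isDefEq.respectTransparency false

namespace Cfsg.Agent.A8R
open Subgroup
open scoped Pointwise

universe u

variable {G : Type u} [Group G]

def dV (a b : G) (ha : a * a = 1) (hb : b * b = 1) (hab : Commute a b) : Subgroup G where
  carrier := {x | x = 1 ∨ x = a ∨ x = b ∨ x = a * b}
  one_mem' := Or.inl rfl
  mul_mem' := by
    have h1 : ∀ x, a * (a * x) = x := fun x => by rw [← mul_assoc, ha, one_mul]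
    have h2 : ∀ x, b * (b * x) = x := fun x => by rw [← mul_assoc, hb, one_mul]
    have h3 : b * a = a * b := hab.eq.symm
    have h4 : ∀ x, b * (a * x) = a * (b * x) := fun x => by rw [← mul_assoc, h3, mul_assoc]
    rintro x y (hx | hx | hx | hx) (hy | hy | hy | hy) <;> rw [hx, hy] <;>
      simp [mul_assoc, ha, hb, h1, h2, h3, h4]
  inv_mem' := by
    have h1 : a⁻¹ = a := inv_eq_of_mul_eq_one_right ha
    have h2 : b⁻¹ = b := inv_eq_of_mul_eq_one_right hb
    rintro x (hx | hx | hx | hx) <;> rw [hx] <;> simp [h1, h2, hab.eq.symm]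

theorem d_norm {V : Subgroup G} {g : G} (hg : g * g = 1) (h : ∀ x ∈ V, g * x * g ∈ V) :
    g ∈ normalizer (V : Set G) := by
  have h1 : g⁻¹ = g := inv_eq_of_mul_eq_one_right hg
  refine mem_normalizer_iff.2 fun x => ⟨fun hx => by rw [h1]; exact h x hx, fun hx => ?_⟩
  have := h _ hx
  rw [h1] at this
  convert this using 1
  calc x = (g * g) * x * (g * g) := by rw [hg]; group
    _ = _ := by group

def dE (V : Subgroup G) (u : G) (hu : u * u = 1) (h : ∀ x ∈ V, u * x * u ∈ V) : Subgroup G where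
  carrier := {x | x ∈ V ∨ x * u ∈ V}
  one_mem' := Or.inl V.one_mem
  mul_mem' := by
    rintro x y (hx | hx) (hy | hy)
    · exact Or.inl (V.mul_mem hx hy)
    · exact Or.inr (by rw [mul_assoc]; exact V.mul_mem hx hy)
    · refine Or.inr ?_
      convert V.mul_mem hx (h y hy) using 1
      calc x * y * u = x * (u * u) * y * u := by rw [hu]; group
        _ = _ := by group
    · refine Or.inl ?_
      convert V.mul_mem hx (h _ hy) using 1
      calc x * y = x * (u * u) * y * (u * u) := by rw [hu]; group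
        _ = _ := by group
  inv_mem' := by
    rintro x (hx | hx)
    · exact Or.inl (V.inv_mem hx)
    · refine Or.inr ?_
      convert h _ (V.inv_mem hx) using 1
      group

theorem d8lb : D8L.{u} := by
  intro G _ _ t t' u s ht ht' hu hs t1 htt' htu hut hst c1 c2 c3 c4 hnc
  by_contra hcon
  have : Fact (Nat.Prime 2) := ⟨Nat.prime_two⟩
  have hU : ∀ c : G, Commute c t → Commute c u → (∃ k : ℕ, c ^ 2 ^ k = 1) →
      c ∈ closure ({t, u} : Set G) := fun c h1 h2 h3 => by
    by_contra h4; exact hcon ⟨c, h1, h2, h3, h4⟩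
  have a1 : ∀ x, t * (t * x) = x := fun x => by rw [← mul_assoc, ht, one_mul]
  have a2 : ∀ x, t' * (t' * x) = x := fun x => by rw [← mul_assoc, ht', one_mul]
  have a3 : ∀ x, u * (u * x) = x := fun x => by rw [← mul_assoc, hu, one_mul]
  have b1 : t' * t = t * t' := htt'.eq.symm
  have b1' : ∀ x, t' * (t * x) = t * (t' * x) := fun x => by rw [← mul_assoc, b1, mul_assoc]
  have b2 : u * t = t * u := htu.eq.symm
  have b2' : ∀ x, u * (t * x) = t * (u * x) := fun x => by rw [← mul_assoc, b2, mul_assoc]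
  have b3 : u * t' = t * (t' * u) := by rw [← mul_assoc, ← hut, mul_assoc, hu, mul_one]
  have b3' : ∀ x, u * (t' * x) = t * (t' * (u * x)) := fun x => by
    rw [← mul_assoc, b3]; simp only [mul_assoc]
  set V := dV t t' ht ht' htt' with hV
  have mV : ∀ x, x ∈ V ↔ x = 1 ∨ x = t ∨ x = t' ∨ x = t * t' := fun x => Iff.rfl
  have huV : ∀ x ∈ V, u * x * u ∈ V := by
    rintro x (hx | hx | hx | hx) <;> rw [hx, mV] <;>
      simp [mul_assoc, ht, ht', hu, a1, a2, a3, b1, b1', b2, b2', b3, b3']
  have hst' : s * t' * s = t := by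
    rw [← hst]
    calc s * (s * t * s) * s = (s * s) * t * (s * s) := by group
      _ = t := by rw [hs]; group
  have hsV : ∀ x ∈ V, s * x * s ∈ V := by
    rintro x (hx | hx | hx | hx) <;> rw [hx, mV]
    · left; rw [mul_one, hs]
    · right; right; left; exact hst
    · right; left; exact hst'
    · right; right; right
      calc s * (t * t') * s = s * t * (s * s) * t' * s := by rw [hs]; group
        _ = (s * t * s) * (s * t' * s) := by group
        _ = _ := by rw [hst, hst', b1]
  set E := dE V u hu huV with hE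
  have mE : ∀ x, x ∈ E → x = 1 ∨ x = t ∨ x = t' ∨ x = t * t' ∨ x = u ∨ x = t * u ∨
      x = t' * u ∨ x = t * t' * u := by
    have e : ∀ x y, x * u = y → x = y * u := fun x y h => by rw [← h, mul_assoc, hu, mul_one]
    rintro x ((h | h | h | h) | (h | h | h | h))
    · simp [h]
    · simp [h]
    · simp [h]
    · simp [h]
    · simp [e _ _ h]
    · simp [e _ _ h]
    · simp [e _ _ h]
    · simp [e _ _ h]
  have tV : t ∈ V := Or.inr (Or.inl rfl)
  have t'V : t' ∈ V := Or.inr (Or.inr (Or.inl rfl))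
  have tE : t ∈ E := Or.inl tV
  have t'E : t' ∈ E := Or.inl t'V
  have uE : u ∈ E := Or.inr (hu ▸ V.one_mem)
  have hUE : closure ({t, u} : Set G) ≤ E := (closure_le _).2 (by
    rintro x (rfl | rfl); exacts [tE, uE])
  have q1 : t' * u * (t' * u) = t := by
    simp [mul_assoc, ht, ht', hu, a1, a2, a3, b1, b1', b2, b2', b3, b3']
  have q2 : t * t' * u * (t * t' * u) = t := by
    simp [mul_assoc, ht, ht', hu, a1, a2, a3, b1, b1', b2, b2', b3, b3']
  have hEp : IsPGroup 2 E := by
    intro x
    refine ⟨2, Subtype.ext ?_⟩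
    show (x : G) ^ 2 ^ 2 = 1
    rw [show (x : G) ^ 2 ^ 2 = x * (x * (x * x)) by norm_num [pow_succ, mul_assoc]]
    rcases mE x x.2 with h | h | h | h | h | h | h | h <;> rw [h] <;>
      simp [mul_assoc, ht, ht', hu, a1, a2, a3, b1, b1', b2, b2', b3, b3']
  set H := normalizer (V : Set G) with hH
  have hEH : E ≤ H := by
    rintro x (hx | hx)
    · exact le_normalizer hx
    · have := H.mul_mem (le_normalizer hx) (d_norm hu huV)
      rwa [mul_assoc, hu, mul_one] at this
  have ncm : ¬ Commute t' u := fun h => t1 (by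
    have := b3
    rw [← h.eq] at this
    exact (mul_eq_right.1 this.symm))
  have uV : u ∉ V := by
    rintro (h | h | h | h)
    · exact ncm (h ▸ Commute.one_right _)
    · exact ncm (h ▸ htt'.symm)
    · exact ncm (h ▸ Commute.refl _)
    · exact ncm (h ▸ htt'.symm.mul_right (Commute.refl _))
  -- `E` is a maximal 2-subgroup of `H`
  have key : ∀ R : Subgroup G, IsPGroup 2 R → R ≤ H → E ≤ R → R ≤ E := by
    intro R hR hRH hER
    by_contra hne
    have := hR.isNilpotent
    have hlt : E.subgroupOf R < ⊤ := lt_top_iff_ne_top.2 fun e => hne (subgroupOf_eq_top.1 e)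
    obtain ⟨r, hr1, hr2⟩ := SetLike.exists_of_lt (normalizerCondition_of_isNilpotent _ hlt)
    have hrE : ∀ x ∈ E, (r : G) * x * (r : G)⁻¹ ∈ E := fun x hx =>
      (mem_normalizer_iff.1 hr1 ⟨x, hER hx⟩).1 hx
    have hrE' : ∀ x ∈ E, (r : G)⁻¹ * x * (r : G) ∈ E := fun x hx => by
      have := (mem_normalizer_iff.1 (inv_mem hr1) ⟨x, hER hx⟩).1 hx
      simpa [mem_subgroupOf] using this
    have hrV := mem_normalizer_iff.1 (hRH r.2)
    have ctE : ∀ x ∈ E, Commute t x := fun x hx => by
      rcases mE x hx with h | h | h | h | h | h | h | h <;> rw [h] <;>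
        simp [Commute, SemiconjBy, mul_assoc, ht, ht', hu, a1, a2, a3, b1, b1', b2, b2', b3, b3']
    have hrt : (r : G) * t * (r : G)⁻¹ = t := by
      have hc : Commute ((r : G) * t * (r : G)⁻¹) u := by
        have := (ctE _ (hrE' u uE)).eq
        show _ * _ = _ * _
        calc (r : G) * t * (r : G)⁻¹ * u = r * (t * ((r : G)⁻¹ * u * r)) * (r : G)⁻¹ := by group
          _ = _ := by rw [this]; group
      rcases (hrV t).1 tV with h | h | h | h
      · exact absurd (by simpa using h) t1
      · exact h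
      · exact absurd (h ▸ hc) ncm
      · rw [h] at hc
        exact absurd (by simpa [← mul_assoc, ht] using htu.mul_left hc) ncm
    have hrt' : Commute (r : G) t := mul_inv_eq_iff_eq_mul.1 hrt
    have huu : (r : G) * u * (r : G)⁻¹ * ((r : G) * u * (r : G)⁻¹) = 1 := by
      calc _ = (r : G) * (u * u) * (r : G)⁻¹ := by group
        _ = 1 := by rw [hu]; group
    have hnV : (r : G) * u * (r : G)⁻¹ ∉ V := fun h => uV ((hrV u).2 h)
    have h2 : ∀ c ∈ R, ∃ k : ℕ, c ^ 2 ^ k = 1 := fun c hc => by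
      obtain ⟨k, hk⟩ := hR ⟨c, hc⟩
      exact ⟨k, congrArg Subtype.val hk⟩
    rcases mE _ (hrE u uE) with h | h | h | h | h | h | h | h
    · exact hnV (Or.inl h)
    · exact hnV (Or.inr (Or.inl h))
    · exact hnV (Or.inr (Or.inr (Or.inl h)))
    · exact hnV (Or.inr (Or.inr (Or.inr h)))
    · exact hr2 (hUE (hU r hrt' (mul_inv_eq_iff_eq_mul.1 h) (h2 _ r.2)))
    · have h3 : (r : G) * u = t * u * r := mul_inv_eq_iff_eq_mul.1 h
      have h4 : Commute (t' * r) u := by
        show _ * _ = _ * _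
        rw [mul_assoc, h3]
        simp [mul_assoc, a1, b1', b3']
      have h5 := hUE (hU _ (htt'.symm.mul_left hrt') h4 (h2 _ (R.mul_mem (hER t'E) r.2)))
      exact hr2 ((E.mul_mem_cancel_left t'E).1 h5)
    · rw [h, q1] at huu; exact t1 huu
    · rw [h, q2] at huu; exact t1 huu
  have hsH : s ∈ H := d_norm hs hsV
  obtain ⟨R, hR⟩ := (hEp.comap_subtype (K := H)).exists_le_sylow
  have hz : IsPGroup 2 (zpowers (⟨s, hsH⟩ : H)) := by
    refine IsPGroup.of_card (n := 1) ?_
    rw [Nat.card_zpowers, pow_one]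
    refine orderOf_eq_prime (Subtype.ext (by simpa [pow_two] using hs)) fun e => ?_
    have e' : s = 1 := congrArg Subtype.val e
    rw [e', one_mul, mul_one] at hst
    exact ncm (hst ▸ htu)
  obtain ⟨Q, hQ⟩ := hz.exists_le_sylow
  obtain ⟨a, ha⟩ := MulAction.exists_smul_eq H Q R
  have h1 : MulAut.conj a • (⟨s, hsH⟩ : H) ∈ (R : Subgroup H) := by
    rw [← ha, Sylow.coe_subgroup_smul]
    exact smul_mem_pointwise_smul _ _ _ (hQ (mem_zpowers _))
  have h2 : (a : G) * s * (a : G)⁻¹ ∈ E :=
    key ((R : Subgroup H).map H.subtype) (R.isPGroup'.map _) (map_subtype_le _)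
      (fun x hx => ⟨⟨x, hEH hx⟩, hR hx, rfl⟩) ⟨_, h1, rfl⟩
  have hc : IsConj s ((a : G) * s * (a : G)⁻¹) := isConj_iff.2 ⟨a, rfl⟩
  have hss : (a : G) * s * (a : G)⁻¹ * ((a : G) * s * (a : G)⁻¹) = 1 := by
    calc _ = (a : G) * (s * s) * (a : G)⁻¹ := by group
      _ = 1 := by rw [hs]; group
  rcases mE _ h2 with h | h | h | h | h | h | h | h <;> rw [h] at hc hss
  · have e' : s = 1 := by simpa using hc
    rw [e', one_mul, mul_one] at hst
    exact ncm (hst ▸ htu)
  · exact hnc hc
  · exact hnc (hc.trans c1.symm)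
  · exact hnc (hc.trans c2.symm)
  · exact hnc (hc.trans c3.symm)
  · exact hnc (hc.trans c4.symm)
  · rw [q1] at hss; exact t1 hss
  · rw [q2] at hss; exact t1 hss

end Cfsg.Agent.A8R
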