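import Cfsg.Agent.A8R.Def

set_option autoImplicit false

namespace Cfsg.Agent.A8R
open Subgroup Equiv Equiv.Perm

universe u

theorem eb_z3 {G : Type*} [Group G] [Finite G] {w x : G} (hw : orderOf w = 3)
    (hx : x ∈ zpowers w) (h1 : x ≠ 1) : zpowers x = zpowers w := by
  refine eq_of_le_of_card_ge (zpowers_le.2 hx) ?_
  rw [Nat.card_zpowers, Nat.card_zpowers, hw]
  have h := orderOf_dvd_of_mem_zpowers hx
  rw [hw] at h
  rcases (Nat.dvd_prime Nat.prime_three).1 h with e | e
  · exact absurd (orderOf_eq_one_iff.1 e) h1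
  · exact e.ge

theorem eb_nine {G : Type*} [Group G] [Finite G] {z w : G} (hz : orderOf z = 3)
    (hw : orderOf w = 3) (hc : Commute z w) (hn : w ∉ zpowers z) :
    Nat.card (closure ({z, w} : Set G)) = 9 := by
  have hcomm : ∀ (m : zpowers z) (n : zpowers w),
      Commute ((zpowers z).subtype m) ((zpowers w).subtype n) := by
    rintro ⟨_, i, rfl⟩ ⟨_, j, rfl⟩
    exact hc.zpow_zpow i j
  have hi : Function.Injective
      (MonoidHom.noncommCoprod (zpowers z).subtype (zpowers w).subtype hcomm) := by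
    refine (MonoidHom.noncommCoprod_injective _ _ _).2
      ⟨subtype_injective _, subtype_injective _, ?_⟩
    rw [range_subtype, range_subtype, disjoint_def]
    intro x h1 h2
    by_contra h
    exact hn (zpowers_le.2 h1 (eb_z3 hw h2 h ▸ mem_zpowers w))
  have h := Nat.card_congr (MonoidHom.ofInjective hi).toEquiv
  rw [MonoidHom.noncommCoprod_range, range_subtype, range_subtype, Nat.card_prod,
    Nat.card_zpowers, Nat.card_zpowers, hz, hw] at h
  rw [Set.insert_eq, Subgroup.closure_union, ← zpowers_eq_closure, ← zpowers_eq_closure, ← h]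

theorem eb_syl {H : Type*} [Group H] [Finite H] (h27 : ¬ 27 ∣ Nat.card H) (P : Subgroup H)
    (h9 : Nat.card P = 9) : ∃ S : Sylow 3 H, (S : Subgroup H) = P := by
  haveI : Fact (Nat.Prime 3) := ⟨Nat.prime_three⟩
  refine ⟨(IsPGroup.of_card (n := 2) h9).toSylow fun h => h27 ?_, rfl⟩
  rw [← P.card_mul_index, h9]
  exact Nat.mul_dvd_mul_left 9 h

def ebc : A8 := ⟨swap 0 1 * swap 1 2, by rw [mem_alternatingGroup]; decide⟩
def ebd : A8 := ⟨swap 3 4 * swap 4 5, by rw [mem_alternatingGroup]; decide⟩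
def eba : A8 := ⟨swap 0 4 * swap 0 1 * swap 0 3 * swap 2 5, by rw [mem_alternatingGroup]; decide⟩
def ebb : A8 := ⟨swap 0 1 * swap 6 7, by rw [mem_alternatingGroup]; decide⟩

def ebf (u : Fin 3 × Fin 3 × Fin 4 × Fin 2) : A8 :=
  ebc ^ u.1.1 * ebd ^ u.2.1.1 * eba ^ u.2.2.1.1 * ebb ^ u.2.2.2.1

def ebg (u : Fin 3 × Fin 3 × Fin 4 × Fin 2) : Fin 8 × Fin 8 × Fin 8 × Fin 8 :=
  ((ebf u).1 0, (ebf u).1 1, (ebf u).1 3, (ebf u).1 4)

theorem ebg_inj : Function.Injective ebg := by decide +kernel

theorem eb_norm {H : Type*} [Group H] [Finite H] {c d x : H}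
    (h1 : x * c * x⁻¹ ∈ closure ({c, d} : Set H)) (h2 : x * d * x⁻¹ ∈ closure ({c, d} : Set H)) :
    x ∈ normalizer (closure ({c, d} : Set H) : Set H) := by
  refine mem_normalizer_fintype fun n hn => ?_
  have : closure ({c, d} : Set H) ≤ (closure ({c, d} : Set H)).comap (MulAut.conj x).toMonoidHom := by
    rw [closure_le]
    rintro _ (rfl | rfl)
    · exact h1
    · exact h2
  exact this hn

theorem eb_72 : 72 ≤ Nat.card (normalizer (closure ({ebc, ebd} : Set A8) : Set A8)) := by
  have hc : ebc ∈ closure ({ebc, ebd} : Set A8) := subset_closure (by simp)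
  have hd : ebd ∈ closure ({ebc, ebd} : Set A8) := subset_closure (by simp)
  have ha : eba ∈ normalizer (closure ({ebc, ebd} : Set A8) : Set A8) :=
    eb_norm (by rw [show eba * ebc * eba⁻¹ = ebd by decide]; exact hd)
      (by rw [show eba * ebd * eba⁻¹ = ebc⁻¹ by decide]; exact inv_mem hc)
  have hb : ebb ∈ normalizer (closure ({ebc, ebd} : Set A8) : Set A8) :=
    eb_norm (by rw [show ebb * ebc * ebb⁻¹ = ebc⁻¹ by decide]; exact inv_mem hc)
      (by rw [show ebb * ebd * ebb⁻¹ = ebd by decide]; exact hd)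
  have := Nat.card_le_card_of_injective
    (fun u => (⟨ebf u, mul_mem (mul_mem (mul_mem (pow_mem (le_normalizer hc) _)
      (pow_mem (le_normalizer hd) _)) (pow_mem ha _)) (pow_mem hb _)⟩ :
      normalizer (closure ({ebc, ebd} : Set A8) : Set A8)))
    fun u v h => ebg_inj (by
      have : ebf u = ebf v := congrArg Subtype.val h
      simp only [ebg, this])
  simpa using this

theorem embb (h : HOM.{u}) : EMB.{u} := by
  intro G _ _ S
  haveI : Fact (Nat.Prime 3) := ⟨Nat.prime_three⟩
  obtain ⟨φ, hφ, h1, h2⟩ := h G S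
  refine ⟨⟨φ, hφ, fun x hx => ?_, S.h27⟩⟩
  have oa : orderOf ya = 3 := orderOf_eq_prime (by decide) (by decide)
  have ob : orderOf yb = 3 := orderOf_eq_prime (by decide) (by decide)
  have oz : orderOf (S.ψ ya) = 3 := by rw [orderOf_injective _ S.ψi, oa]
  have ow : orderOf (S.ψ yb) = 3 := by rw [orderOf_injective _ S.ψi, ob]
  have hab : yb ∉ zpowers ya := by
    rw [mem_zpowers_iff_mem_range_orderOf, oa]; decide
  have h9 : Nat.card (closure ({S.ψ ya, S.ψ yb} : Set G)) = 9 :=
    eb_nine oz ow ((show Commute ya yb by unfold Commute SemiconjBy; decide).map S.ψ) fun e => hab (by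
      rw [← MonoidHom.map_zpowers] at e
      obtain ⟨y, hy, e⟩ := e
      exact S.ψi e ▸ hy)
  have hD : closure ({S.ψ ya, S.ψ yb} : Set G) ≤ φ.range := by
    rw [closure_le]
    rintro _ (rfl | rfl) <;> exact h1 ⟨_, rfl⟩
  have nD := S.nD
  have cy := S.cy
  generalize closure ({S.ψ ya, S.ψ yb} : Set G) = D at h9 hD nD cy
  have h27 : ¬ 27 ∣ Nat.card A8 := fun e => S.h27 (e.trans (card_dvd_of_injective φ hφ))
  have eD : (D.comap φ).map φ = D := map_comap_eq_self hD
  obtain ⟨P, hP⟩ := eb_syl h27 (D.comap φ) (by rw [← card_map_of_injective hφ, eD, h9])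
  obtain ⟨P0, hP0⟩ := eb_syl h27 _ (eb_nine (z := ebc) (w := ebd)
    (orderOf_eq_prime (by decide) (by decide)) (orderOf_eq_prime (by decide) (by decide))
    (by unfold Commute SemiconjBy; decide) (by
      rw [mem_zpowers_iff_mem_range_orderOf,
        (orderOf_eq_prime (by decide) (by decide) : orderOf ebc = 3)]; decide))
  have hN : normalizer (D : Set G) ≤ φ.range := by
    have e1 := P.card_eq_index_normalizer
    rw [P0.card_eq_index_normalizer] at e1
    have e2 := (normalizer ((P : Subgroup A8) : Set A8)).card_mul_index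
    have e3 := (normalizer ((P0 : Subgroup A8) : Set A8)).card_mul_index
    have e4 : Nat.card (normalizer ((P : Subgroup A8) : Set A8)) =
        Nat.card (normalizer ((P0 : Subgroup A8) : Set A8)) := by
      rw [← e3] at e2
      refine Nat.eq_of_mul_eq_mul_right (Nat.pos_of_ne_zero index_ne_zero_of_finite) (e2.trans ?_)
      exact congrArg _ e1
    have e5 := eb_72
    rw [← hP0, ← e4, hP, ← card_map_of_injective hφ] at e5
    have e6 : (normalizer ((D.comap φ : Subgroup A8) : Set A8)).map φ ≤ normalizer (D : Set G) := by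
      have := le_normalizer_map (H := D.comap φ) φ
      rwa [eD] at this
    rw [← eq_of_le_of_card_ge e6 (nD.le.trans e5)]
    exact map_le_range _ _
  obtain ⟨R, hR⟩ := (IsPGroup.of_card (p := 3) (n := 1) (G := zpowers x)
    (by rw [Nat.card_zpowers, hx, pow_one])).exists_le_sylow
  obtain ⟨g, hg⟩ := MulAction.exists_smul_eq A8 R P
  have hd : φ (g * x * g⁻¹) ∈ D := by
    have : g * x * g⁻¹ ∈ (P : Subgroup A8) := by
      rw [← hg, Sylow.coe_subgroup_smul]
      exact smul_mem_pointwise_smul _ _ _ (hR (mem_zpowers x))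
    rwa [hP] at this
  have hd1 : φ (g * x * g⁻¹) ≠ 1 := fun e => by
    have := hφ (e.trans (map_one φ).symm)
    rw [conj_eq_one_iff] at this
    rw [this, orderOf_one] at hx
    omega
  have hcen : ∀ d : G, centralizer {d} ≤ normalizer (zpowers d : Set G) := fun d =>
    le_trans (fun c hc => by
      rintro _ ⟨i, rfl⟩
      exact (Commute.zpow_left (hc d rfl) i).eq) (centralizer_le_normalizer (zpowers d : Set G))
  have key : centralizer {φ (g * x * g⁻¹)} ≤ φ.range := by
    by_cases a : φ (g * x * g⁻¹) ∈ zpowers (S.ψ ya)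
    · exact (hcen _).trans (by rw [eb_z3 oz a hd1, ← S.ψr]; exact h1)
    by_cases b : φ (g * x * g⁻¹) ∈ zpowers (S.ψ yb)
    · exact (hcen _).trans (by rw [eb_z3 ow b hd1, ← S.ab, ← S.χr]; exact h2)
    exact (cy _ hd a b).trans hN
  intro c hc
  have hc' : φ x * c = c * φ x := hc _ rfl
  have : φ g * c * (φ g)⁻¹ ∈ φ.range := key (by
    rintro _ rfl
    rw [map_mul, map_mul, map_inv]
    calc _ = φ g * (φ x * c) * (φ g)⁻¹ := by group
      _ = _ := by rw [hc']; group)
  have h3 := mul_mem (mul_mem (inv_mem (⟨g, rfl⟩ : φ g ∈ φ.range)) this) (⟨g, rfl⟩ : φ g ∈ φ.range)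
  simpa [mul_assoc] using h3

end Cfsg.Agent.A8R
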