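import Cfsg.Agent.A8R.FINa
import Cfsg.Agent.A8Q.Main

set_option autoImplicit false
set_option maxRecDepth 100000

namespace Cfsg.Agent.A8R
open Subgroup Cfsg.Agent.Comp Cfsg.Agent.Core

universe u

theorem fin_psi : ∃ ψ : El A8Q.DA →* A8, Function.Injective ψ ∧ ψ A8Q.mz = u1 * v1 ∧
    IsConj (u1 * v1) (ψ (A8Q.mq * A8Q.mp)) := by
  obtain ⟨ψ, h1, -⟩ := El.exists_hom (D := A8Q.DA) (c := A8Q.sA 6)
    (show ∀ w ∈ A8Q.RDA, ev (A8Q.sA 6) w = 1 by decide +kernel)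
  have e0 : ψ A8Q.mp = A8Q.sA 6 0 := A8Q.a_l.1 ▸ h1 0 (by decide)
  have e2 : ψ A8Q.mq = A8Q.sA 6 2 := A8Q.a_l.2.2.1 ▸ h1 2 (by decide)
  have ez : ψ A8Q.mz = u1 * v1 := by
    rw [A8Q.a_l.2.2.2.2.2.2.2, map_mul, e0]
    decide +kernel
  refine ⟨ψ, A8Q.inj_of_z (by rw [ez]; decide +kernel), ez, isConj_iff.2 ⟨A8Q.sA 6 9, ?_⟩⟩
  rw [map_mul, e0, e2]
  decide +kernel

theorem fin : FIN.{u} := by
  intro G _ _ E hC
  obtain ⟨ψ, hi, hz, hc⟩ := fin_psi
  have hr : ψ.range = centralizer ({u1 * v1} : Set A8) := eq_of_le_of_card_ge (by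
    rintro _ ⟨y, rfl⟩
    rw [mem_centralizer_singleton_iff, ← hz, ← map_mul, ← map_mul]
    exact congrArg ψ ((by decide +kernel : ∀ g : El A8Q.DA, g * A8Q.mz = A8Q.mz * g) y))
    (by rw [El.card_range hi]; exact fin_cA8)
  have cm : M12R.CM (E.φ.comp ψ) A8Q.mz := ⟨E.φi.comp hi, fun g => by
    rw [MonoidHom.comp_apply, hz]
    constructor
    · intro h
      obtain ⟨x, rfl⟩ := hC (mem_centralizer_singleton_iff.2 h)
      have hx : x ∈ ψ.range := by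
        rw [hr, mem_centralizer_singleton_iff]
        exact E.φi ((map_mul _ _ _).trans (h.trans (map_mul _ _ _).symm))
      obtain ⟨y, rfl⟩ := hx
      exact ⟨y, rfl⟩
    · rintro ⟨y, rfl⟩
      have hx : ψ y ∈ ψ.range := ⟨y, rfl⟩
      rw [hr, mem_centralizer_singleton_iff] at hx
      rw [MonoidHom.comp_apply, ← map_mul, ← map_mul, hx]⟩
  have hd : 20160 ∣ Nat.card G := by
    rw [← A8Q.card_alt (n := 6) (k := 20160) (by decide)]
    exact card_dvd_of_injective E.φ E.φi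
  rcases A8Q.main (G := G) (Or.inr ⟨E.φ.comp ψ, cm, A8Q.mq * A8Q.mp, by decide +kernel,
    by rw [MonoidHom.comp_apply, MonoidHom.comp_apply, hz]; exact E.φ.map_isConj hc, by decide +kernel⟩) with
    ⟨N, _, -, -, h8, ⟨e⟩⟩ | h | ⟨⟨e⟩⟩ | ⟨⟨e⟩⟩
  · rw [card_eq_card_quotient_mul_card_subgroup N, h8, Nat.card_congr e.toEquiv, fin_cL3] at hd
    omega
  · exact h
  · refine absurd ?_ E.h27
    rw [Nat.card_congr e.toEquiv, A8Q.card_alt (n := 7) (k := 181440) (by decide)]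
    norm_num
  · refine absurd ?_ E.h27
    rw [Nat.card_congr e.toEquiv, Golay.card_M12]
    norm_num

end Cfsg.Agent.A8R
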