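import Cfsg.Agent.A8R.Def
import Cfsg.Agent.Golay.Mathieu

set_option autoImplicit false

namespace Cfsg.Agent.A8R
open Subgroup Equiv Equiv.Perm

universe u

theorem finx {G : Type u} [Group G] [Finite G] (E : Emb G)
    (h : (∃ (N : Subgroup G) (_ : N.Normal), IsMulCommutative N ∧ (∀ n ∈ N, n ^ 2 = 1) ∧
        Nat.card N = 8 ∧ Nonempty (G ⧸ N ≃* Matrix.ProjectiveSpecialLinearGroup (Fin 3) (ZMod 2))) ∨
      Nonempty (G ≃* alternatingGroup (Fin 8)) ∨ Nonempty (G ≃* alternatingGroup (Fin 9)) ∨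
      Cfsg.Spor.IsoM12 G) : Nonempty (G ≃* A8) := by
  rcases h with ⟨N, _, -, -, hN, ⟨e⟩⟩ | h | ⟨⟨e⟩⟩ | ⟨⟨e⟩⟩
  · exfalso
    have h1 : Nat.card A8 = 20160 := by
      rw [nat_card_alternatingGroup]; simp [Nat.factorial]
    have h2 := Nat.card_le_card_of_injective E.φ E.φi
    have h3 := card_eq_card_quotient_mul_card_subgroup N
    have h4 : Nat.card (Matrix.ProjectiveSpecialLinearGroup (Fin 3) (ZMod 2)) ≤
        Nat.card (Matrix.SpecialLinearGroup (Fin 3) (ZMod 2)) :=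
      Nat.card_le_card_of_surjective _ QuotientGroup.mk_surjective
    have h5 : Nat.card (Matrix.SpecialLinearGroup (Fin 3) (ZMod 2)) ≤
        Nat.card (Fin 3 → Fin 3 → ZMod 2) :=
      Nat.card_le_card_of_injective (β := Fin 3 → Fin 3 → ZMod 2) Subtype.val Subtype.val_injective
    have h6 : Nat.card (Fin 3 → Fin 3 → ZMod 2) = 512 := by simp
    rw [Nat.card_congr e.toEquiv, hN] at h3
    omega
  · exact h
  · refine absurd ?_ E.h27
    rw [Nat.card_congr e.toEquiv, nat_card_alternatingGroup]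
    simp [Nat.factorial]
  · refine absurd ?_ E.h27
    rw [Nat.card_congr e.toEquiv, Cfsg.Agent.Golay.card_M12]
    norm_num

end Cfsg.Agent.A8R
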