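import Cfsg.Agent.A8R.Def
import Cfsg.Agent.S0058

set_option autoImplicit false

namespace Cfsg.Agent.A8R
open Subgroup

universe u

theorem genc_one {a b c : ℕ} (h1 : a ∣ b) (h2 : a ∣ c) (h : b.Coprime c) : a = 1 :=
  Nat.eq_one_of_dvd_coprimes h h1 h2

theorem genc_syl {C : Type*} [Group C] [Finite C] (z : C) (hz : orderOf z = 3)
    (h1 : ∀ c : C, Commute c z → (∃ k : ℕ, c ^ 3 ^ k = 1) → c ∈ zpowers z)
    (h2 : ∀ c : C, c * z * c⁻¹ ≠ z⁻¹) :
    ∃ K : Subgroup C, (∀ c, c ∈ K ↔ (orderOf c).Coprime 3) ∧ (Nat.card K).Coprime 3 ∧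
      K ⊔ zpowers z = ⊤ := by
  classical
  haveI : Fact (Nat.Prime 3) := ⟨Nat.prime_three⟩
  have h3 : z ^ 3 = 1 := hz ▸ pow_orderOf_eq_one z
  have hz1 : z ≠ 1 := by rintro rfl; simp at hz
  have hN : ∀ c ∈ normalizer (zpowers z : Set C), Commute c z := fun c hc => by
    have := (mem_normalizer_iff.1 hc z).1 (mem_zpowers z)
    rw [mem_zpowers_iff_mem_range_orderOf, hz] at this
    obtain ⟨i, hi, e⟩ := Finset.mem_image.1 this
    have hi' := Finset.mem_range.1 hi
    interval_cases i
    · exact absurd (by simpa using e.symm) hz1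
    · rw [pow_one] at e
      exact (mul_inv_eq_iff_eq_mul.1 e.symm)
    · refine absurd (e.symm.trans ?_) (h2 c)
      rw [eq_inv_iff_mul_eq_one, ← pow_succ, h3]
  have hp : IsPGroup 3 (zpowers z) := IsPGroup.of_card (n := 1) (by simp [hz])
  let P : Sylow 3 C := ⟨zpowers z, hp, fun {Q} hQ hle => by
    haveI := hQ.isNilpotent
    by_contra hne
    have hlt : (zpowers z).subgroupOf Q < ⊤ := lt_top_iff_ne_top.2 fun e =>
      hne (le_antisymm (subgroupOf_eq_top.1 e) hle)
    obtain ⟨c, hc, hc'⟩ := SetLike.exists_of_lt (normalizerCondition_of_isNilpotent _ hlt)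
    rw [← subgroupOf_normalizer_eq hle] at hc
    obtain ⟨k, hk⟩ := hQ c
    exact hc' (h1 c (hN c hc) ⟨k, congrArg Subtype.val hk⟩)⟩
  have hP : normalizer (P : Set C) ≤ centralizer (P : Set C) := fun c hc => by
    rintro _ ⟨i, rfl⟩
    exact ((hN c hc).zpow_right i).symm.eq
  have hK := MonoidHom.not_dvd_card_ker_transferSylow P hP
  have hK' := (Nat.Prime.coprime_iff_not_dvd Nat.prime_three).2 hK
  refine ⟨(MonoidHom.transferSylow P hP).ker, fun c => ⟨fun hc => ?_, fun hc => ?_⟩, hK'.symm,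
    (MonoidHom.ker_transferSylow_isComplement' P hP).sup_eq_top⟩
  · exact Nat.Coprime.coprime_dvd_left (Subgroup.orderOf_dvd_natCard _ hc) hK'.symm
  · rw [MonoidHom.mem_ker, ← orderOf_eq_one_iff]
    obtain ⟨k, hk⟩ := P.2 (MonoidHom.transferSylow P hP c)
    exact genc_one (orderOf_map_dvd _ c) (orderOf_dvd_of_pow_eq_one hk)
      (hc.pow_right k)

theorem genc : GEN.{u} := by
  intro G _ _ z w V hz hw hzw hwz hV hV3 hzV hwV h1 h2
  haveI : Fact (Nat.Prime 3) := ⟨Nat.prime_three⟩
  have hz3 : z ^ 3 = 1 := hz ▸ pow_orderOf_eq_one z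
  have hw3 : w ^ 3 = 1 := hw ▸ pow_orderOf_eq_one w
  have hVC : V ≤ centralizer (V : Set G) := le_centralizer V
  obtain ⟨K, k1, k2, k3⟩ := genc_syl (C := centralizer (V : Set G)) ⟨z, hzV⟩
    (by rw [← hz]; exact (orderOf_coe _).symm) (fun c hc ⟨k, hk⟩ => by
      have e := h1 c c.2 (congrArg Subtype.val hc)
      have hn : zpowers z ≤ normalizer (V : Set G) :=
        (zpowers_le.2 hzV).trans (centralizer_le_normalizer _)
      rw [← SetLike.mem_coe, coe_mul_of_right_le_normalizer_left _ _ hn] at e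
      obtain ⟨v, hv, _, ⟨i, rfl⟩, e⟩ := e
      have cv : Commute v (z ^ i) := (show Commute v z from hzV v hv).zpow_right i
      have hk' : (c : G) ^ 3 ^ k = 1 := congrArg Subtype.val hk
      have e3 : (z ^ i) ^ 3 = 1 := by rw [← zpow_natCast, ← zpow_mul, mul_comm, zpow_mul,
        zpow_natCast, hz3, one_zpow]
      have v3 : v ^ 3 ^ (k + 1) = 1 := by
        have : (c : G) ^ 3 ^ (k + 1) = 1 := by rw [pow_succ, pow_mul, hk', one_pow]
        simp only at e
        rwa [← e, cv.mul_pow, pow_succ' 3 k, pow_mul (z ^ i), e3, one_pow, mul_one,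
          ← pow_succ'] at this
      have v1 : v = 1 := by
        rw [← orderOf_eq_one_iff]
        exact genc_one (Subgroup.orderOf_dvd_natCard _ hv)
          (orderOf_dvd_of_pow_eq_one v3) (hV3.pow_right _)
      exact ⟨i, Subtype.ext (by simpa [v1] using e)⟩)
    (fun c e => h2 c c.2 (congrArg Subtype.val e))
  have mK : ∀ g, g ∈ K.map (centralizer (V : Set G)).subtype ↔
      g ∈ centralizer (V : Set G) ∧ (orderOf g).Coprime 3 := fun g =>
    ⟨fun ⟨c, hc, e⟩ => e ▸ ⟨c.2, by simpa using (k1 c).1 hc⟩,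
      fun ⟨h, h'⟩ => ⟨⟨g, h⟩, (k1 _).2 (by simpa using h'), rfl⟩⟩
  have nK : normalizer (V : Set G) ≤ normalizer (K.map (centralizer (V : Set G)).subtype : Set G) := by
    intro g hg
    refine mem_normalizer_fintype fun n hn => ?_
    obtain ⟨n1, n2⟩ := (mK n).1 hn
    refine (mK _).2 ⟨fun v hv => ?_, ?_⟩
    · have := n1 _ ((mem_normalizer_iff''.1 hg v).1 hv)
      calc v * (g * n * g⁻¹) = g * (g⁻¹ * v * g * n) * g⁻¹ := by group
        _ = _ := by rw [this]; group
    · have : orderOf (g * n * g⁻¹) = orderOf n := (MulAut.conj g).orderOf_eq n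
      rwa [this]
  have kc : (Nat.card (K.map (centralizer (V : Set G)).subtype)).Coprime 3 := by
    rwa [card_map_of_injective (subtype_injective _)]
  refine ⟨K.map (centralizer (V : Set G)).subtype, fun v hv => (mK v).2 ⟨hVC hv,
    Nat.Coprime.coprime_dvd_left (Subgroup.orderOf_dvd_natCard _ hv) hV3⟩, map_subtype_le _, kc,
    nK (centralizer_le_normalizer _ hzV), nK hwV, ?_, fun X hX => ?_⟩
  · have := congrArg (Subgroup.map (centralizer (V : Set G)).subtype) k3
    rw [Subgroup.map_sup, MonoidHom.map_zpowers, ← MonoidHom.range_eq_map, range_subtype] at this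
    exact this.ge
  · haveI : IsMulCommutative (closure ({z, w} : Set G)) := by
      refine Subgroup.isMulCommutative_closure ?_
      rintro a (rfl | rfl) b (rfl | rfl)
      · rfl
      · exact hzw.eq
      · exact hzw.eq.symm
      · rfl
    have a3 : ∀ a ∈ closure ({z, w} : Set G), a ^ 3 = 1 := fun a ha => by
      induction ha using closure_induction with
      | mem x hx => rcases hx with rfl | rfl <;> assumption
      | one => simp
      | mul x y hx hy ex ey =>
        have : Commute x y := setLike_mul_comm hx hy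
        rw [this.mul_pow, ex, ey, one_mul]
      | inv x _ ex => rw [inv_pow, ex, inv_one]
    have hp : IsPGroup 3 (closure ({z, w} : Set G)) := fun a => ⟨1, Subtype.ext (a3 a a.2)⟩
    obtain ⟨n, hn⟩ := IsPGroup.iff_card.1 hp
    rw [← S0058.result (closure ({z, w} : Set G)) (K.map (centralizer (V : Set G)).subtype)
      (fun hc => ?_) ((closure_le _).2 (by
        rintro a (rfl | rfl)
        · exact nK (centralizer_le_normalizer _ hzV)
        · exact nK hwV)) (by rw [hn]; exact kc.symm.pow_left n)]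
    · exact iSup₂_le fun a ha => hX a ha.1 ha.2
    · have c3 : Nat.card (closure ({z, w} : Set G)) ∣ 3 := by
        rw [← IsCyclic.exponent_eq_card]
        exact Monoid.exponent_dvd_of_forall_pow_eq_one fun a => Subtype.ext (a3 a a.2)
      have hle : zpowers z ≤ closure ({z, w} : Set G) := zpowers_le.2 (subset_closure (by simp))
      have := eq_of_le_of_card_ge hle (by rw [Nat.card_zpowers, hz]; exact Nat.le_of_dvd (by norm_num) c3)
      exact hwz (this ▸ subset_closure (by simp))

end Cfsg.Agent.A8R
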