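import Cfsg.Agent.A8R.Def

set_option autoImplicit false

namespace Cfsg.Agent.A8R
open Subgroup Equiv Equiv.Perm

universe u

def ncjY : A8 := ⟨swap 0 4 * swap 0 2 * (swap 1 5 * swap 1 3), by rw [mem_alternatingGroup]; decide⟩
def ncjC : A8 := ⟨swap 4 5 * swap 5 6, by rw [mem_alternatingGroup]; decide⟩
def ncjF : A8 := ⟨swap 0 1 * swap 1 2 * (swap 2 3 * swap 3 7), by rw [mem_alternatingGroup]; decide⟩

theorem ncj_ct {p n : ℕ} [Fact p.Prime] {σ : Perm (Fin 8)} (h : σ ^ p = 1)
    (hs : σ.support.card = n * p) : σ.cycleType = Multiset.replicate n p := by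
  have h1 := cycleType_of_pow_prime_eq_one h
  have h2 := sum_cycleType σ
  rw [h1, Multiset.sum_replicate, hs, smul_eq_mul] at h2
  rw [h1, Nat.eq_of_mul_eq_mul_right (Fact.out : p.Prime).pos h2]

theorem ncj_cs : Nat.card (centralizer ({((u1 * v1 : A8) : Perm (Fin 8))} : Set (Perm (Fin 8)))) = 384 := by
  have : Fact (Nat.Prime 2) := ⟨Nat.prime_two⟩
  rw [nat_card_centralizer, ncj_ct (p := 2) (n := 4) (by decide) (by decide)]
  decide

theorem ncj_cy : Nat.card (centralizer ({((ncjY : A8) : Perm (Fin 8))} : Set (Perm (Fin 8)))) = 36 := by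
  have : Fact (Nat.Prime 3) := ⟨Nat.prime_three⟩
  rw [nat_card_centralizer, ncj_ct (p := 3) (n := 2) (by decide) (by decide)]
  decide

theorem ncj_oy : orderOf ncjY = 3 :=
  haveI : Fact (Nat.Prime 3) := ⟨Nat.prime_three⟩
  orderOf_eq_prime (Subtype.ext (by decide)) (fun h => absurd (congrArg Subtype.val h) (by decide))

theorem ncj_oc : orderOf ncjC = 3 :=
  haveI : Fact (Nat.Prime 3) := ⟨Nat.prime_three⟩
  orderOf_eq_prime (Subtype.ext (by decide)) (fun h => absurd (congrArg Subtype.val h) (by decide))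

theorem ncj_of : orderOf ncjF = 5 :=
  haveI : Fact (Nat.Prime 5) := ⟨by norm_num⟩
  orderOf_eq_prime (Subtype.ext (by decide)) (fun h => absurd (congrArg Subtype.val h) (by decide))

theorem ncj_ys : Commute ncjY (u1 * v1) := Subtype.ext (by decide)
theorem ncj_cu : Commute ncjC u1 := Subtype.ext (by decide)
theorem ncj_fc : Commute ncjF ncjC := Subtype.ext (by decide)

/-- a subgroup of the range centralising `φ a` has order dividing that of the centraliser in `S₈` -/
theorem ncj_dvd {G : Type u} [Group G] (E : Emb G) (a : A8) (P : Subgroup G) (h1 : P ≤ E.φ.range)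
    (h2 : P ≤ centralizer {E.φ a}) :
    Nat.card P ∣ Nat.card (centralizer ({(a : Perm (Fin 8))} : Set (Perm (Fin 8)))) := by
  have e1 : Nat.card P = Nat.card (P.comap E.φ) := by
    rw [← card_map_of_injective (K := P.comap E.φ) E.φi, map_comap_eq_self h1]
  rw [e1, ← card_map_of_injective (K := P.comap E.φ) (subtype_injective A8)]
  refine card_dvd_of_le ?_
  rintro _ ⟨x, hx, rfl⟩
  have := mem_centralizer_singleton_iff.1 (h2 hx)
  rw [← map_mul, ← map_mul] at this
  exact mem_centralizer_singleton_iff.2 (congrArg Subtype.val (E.φi this))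

theorem ncj_9 {G : Type u} [Group G] [Finite G] (E : Emb G) :
    ¬ 9 ∣ Nat.card (centralizer ({E.φ (u1 * v1)} : Set G)) := by
  intro h9
  have : Fact (Nat.Prime 3) := ⟨Nat.prime_three⟩
  set C := centralizer ({E.φ (u1 * v1)} : Set G) with hC
  let y : C := ⟨E.φ ncjY, mem_centralizer_singleton_iff.2 (ncj_ys.map E.φ)⟩
  have oy : orderOf y = 3 := by
    rw [← orderOf_injective C.subtype (subtype_injective C) y]
    exact (orderOf_injective E.φ E.φi ncjY).trans ncj_oy
  have hp : IsPGroup 3 (zpowers y) := IsPGroup.of_card (n := 1) (by rw [Nat.card_zpowers, oy]; rfl)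
  obtain ⟨P, hP⟩ := hp.exists_le_sylow
  have hc : Nat.card P = 3 ^ 2 := by
    rw [P.card_eq_multiplicity]
    congr 1
    have h0 : Nat.card C ≠ 0 := Nat.card_pos.ne'
    have a1 : 2 ≤ (Nat.card C).factorization 3 :=
      (Nat.prime_three.pow_dvd_iff_le_factorization h0).1 h9
    have a2 : ¬ 3 ≤ (Nat.card C).factorization 3 := fun h =>
      E.h27 (((Nat.prime_three.pow_dvd_iff_le_factorization h0).2 h).trans (card_subgroup_dvd_card C))
    omega
  have hcm := IsPGroup.commutative_of_card_eq_prime_sq hc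
  have hd := ncj_dvd E (u1 * v1) ((P : Subgroup C).map C.subtype) ?_ (map_subtype_le _)
  · rw [ncj_cs, card_map_of_injective (subtype_injective C), hc] at hd
    revert hd; decide
  · rintro _ ⟨x, hx, rfl⟩
    refine E.hc ncjY ncj_oy (mem_centralizer_singleton_iff.2 ?_)
    have := hcm ⟨x, hx⟩ ⟨y, hP (mem_zpowers y)⟩
    exact congrArg (fun t : (P : Subgroup C) => ((t : C) : G)) this

theorem ncj : NCJ.{u} := by
  intro G _ _ E
  refine ⟨fun h => ?_, ncj_9 E⟩
  have : Fact (Nat.Prime 3) := ⟨Nat.prime_three⟩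
  obtain ⟨g, hg⟩ := isConj_iff.1 h.symm
  have h9 := ncj_9 E
  set C := centralizer ({E.φ (u1 * v1)} : Set G) with hC
  let y : C := ⟨E.φ ncjY, mem_centralizer_singleton_iff.2 (ncj_ys.map E.φ)⟩
  have oy : orderOf y = 3 := by
    rw [← orderOf_injective C.subtype (subtype_injective C) y]
    exact (orderOf_injective E.φ E.φi ncjY).trans ncj_oy
  let c : C := ⟨g * E.φ ncjC * g⁻¹, mem_centralizer_singleton_iff.2 (by
    rw [← hg]; exact (ncj_cu.map E.φ).map (MulAut.conj g))⟩
  have oc : orderOf c = 3 := by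
    rw [← orderOf_injective C.subtype (subtype_injective C) c]
    exact ((MulAut.conj g).orderOf_eq (E.φ ncjC)).trans
      ((orderOf_injective E.φ E.φi ncjC).trans ncj_oc)
  have key : ∀ x : C, orderOf x = 3 → ∃ P : Sylow 3 C, (P : Subgroup C) = zpowers x := by
    intro x ox
    have hp : IsPGroup 3 (zpowers x) :=
      IsPGroup.of_card (n := 1) (by rw [Nat.card_zpowers, ox]; rfl)
    refine ⟨hp.toSylow fun h3 => h9 ?_, rfl⟩
    rw [← card_mul_index (zpowers x), Nat.card_zpowers, ox]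
    exact mul_dvd_mul_left 3 h3
  obtain ⟨P, hP⟩ := key y oy
  obtain ⟨Q, hQ⟩ := key c oc
  obtain ⟨k, hk⟩ := MulAction.exists_smul_eq C P Q
  have hm : k * y * k⁻¹ ∈ zpowers c := by
    rw [← hQ, ← hk, Sylow.coe_subgroup_smul, hP]
    exact smul_mem_pointwise_smul y (MulAut.conj k) _ (mem_zpowers y)
  obtain ⟨n, hn⟩ := mem_zpowers_iff.1 hm
  have hn' : (g * E.φ ncjC * g⁻¹) ^ n = (k : G) * E.φ ncjY * (k : G)⁻¹ := congrArg Subtype.val hn
  let f : G := (k : G)⁻¹ * (g * E.φ ncjF * g⁻¹) * (k : G)⁻¹⁻¹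
  have hf : Commute f (E.φ ncjY) := by
    have h1 : Commute (g * E.φ ncjF * g⁻¹) ((g * E.φ ncjC * g⁻¹) ^ n) :=
      ((ncj_fc.map E.φ).map (MulAut.conj g)).zpow_right n
    rw [hn'] at h1
    have h2 := h1.map (MulAut.conj (k : G)⁻¹)
    simpa [f, mul_assoc] using h2
  have of5 : orderOf f = 5 :=
    ((MulAut.conj (k : G)⁻¹).orderOf_eq _).trans (((MulAut.conj g).orderOf_eq (E.φ ncjF)).trans
      ((orderOf_injective E.φ E.φi ncjF).trans ncj_of))
  have hle : zpowers f ≤ centralizer {E.φ ncjY} :=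
    (zpowers_le).2 (mem_centralizer_singleton_iff.2 hf)
  have hd := ncj_dvd E ncjY (zpowers f) (hle.trans (E.hc ncjY ncj_oy)) hle
  rw [ncj_cy, Nat.card_zpowers, of5] at hd
  revert hd; decide

end Cfsg.Agent.A8R
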