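import Mathlib
import Cfsg.Agent.A8R.Def

set_option autoImplicit false
set_option maxRecDepth 100000

namespace Cfsg.Agent.A8R
open Subgroup Equiv Equiv.Perm

universe u

theorem s1_a : ∀ τ : Perm (Fin 5), (∀ a ∈ ([swap 0 1 * swap 1 2, swap 2 3 * swap 3 4, swap 0 3 * swap 3 4,
    swap 0 1 * swap 3 4] : List (Perm (Fin 5))), a * τ * a⁻¹ = 1 ∨ a * τ * a⁻¹ = τ ∨ a * τ * a⁻¹ = τ ^ 2) →
    τ ^ 3 = 1 → τ = 1 := by decide +kernel

theorem s1_b : ∀ σ : Perm (Fin 3), σ ^ 9 = 1 →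
    σ = 1 ∨ σ = swap 0 1 * swap 1 2 ∨ σ = (swap 0 1 * swap 1 2) ^ 2 := by decide +kernel

theorem s1_c : ∀ τ : Perm (Fin 5), τ ^ 9 = 1 → τ ≠ 1 →
    ∃ a : Perm (Fin 5), sign a = 1 ∧ a * (swap 0 1 * swap 1 2) * a⁻¹ = τ := by decide +kernel

theorem s1_z (y : Y0) (h9 : y ^ 9 = 1) (h : y.1.2 = 1) : y ∈ zpowers ya := by
  have h1 : y.1.1 ^ 9 = 1 := congrArg (fun x : Y0 => x.1.1) h9
  rcases s1_b _ h1 with e | e | e
  · exact (show y = 1 from Subtype.ext (Prod.ext e h)) ▸ one_mem _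
  · exact (show y = ya from Subtype.ext (Prod.ext e h)) ▸ mem_zpowers _
  · exact (show y = ya ^ 2 from Subtype.ext (Prod.ext e (by rw [h]; rfl))) ▸ pow_mem (mem_zpowers _) 2

theorem s1_three {G : Type*} [Group G] {z x : G} (hz : orderOf z = 3) (h : x ∈ zpowers z) :
    x = 1 ∨ x = z ∨ x = z ^ 2 := by
  have hf : IsOfFinOrder z := orderOf_pos_iff.1 (by omega)
  rw [← hf.mem_powers_iff_mem_zpowers] at h
  obtain ⟨n, rfl⟩ := h
  simp only
  rw [← pow_mod_orderOf, hz]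
  have : n % 3 = 0 ∨ n % 3 = 1 ∨ n % 3 = 2 := by omega
  rcases this with e | e | e <;> rw [e] <;> simp

theorem s1 : S1.{u} := by
  intro G _ _ D z hz hzD hD h9 ⟨e⟩
  have hzN : z ∈ normalizer (zpowers z : Set G) := le_normalizer (mem_zpowers z)
  have hDN : D ≤ normalizer (zpowers z : Set G) := fun d hd => by
    have hc : d * z = z * d := congrArg Subtype.val (hD.is_comm.comm (⟨d, hd⟩ : D) ⟨z, hzD⟩)
    refine Subgroup.mem_normalizer_fintype fun n hn => ?_
    obtain ⟨k, rfl⟩ := hn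
    simp only
    rw [← conj_zpow, hc, mul_inv_cancel_right]
    exact zpow_mem (mem_zpowers z) k
  let ψ0 : Y0 →* G := (normalizer (zpowers z : Set G)).subtype.comp e.symm.toMonoidHom
  have hψ0 : Function.Injective ψ0 := Subtype.val_injective.comp e.symm.injective
  have hr0 : ψ0.range = normalizer (zpowers z : Set G) := by
    rw [MonoidHom.range_comp, MonoidHom.range_eq_top.2 e.symm.surjective, ← MonoidHom.range_eq_map,
      range_subtype]
  have hval : ∀ x : normalizer (zpowers z : Set G), ψ0 (e x) = x := fun x => by simp [ψ0]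
  set y := e ⟨z, hzN⟩ with hy
  have hyz : ψ0 y = z := hval _
  have hz3 : z ^ 3 = 1 := hz ▸ pow_orderOf_eq_one z
  have hy3 : y ^ 3 = 1 := hψ0 (by rw [map_pow, hyz, hz3, map_one])
  have hy2 : y.1.2 = 1 := by
    refine s1_a _ (fun a ha => ?_) (congrArg (fun x : Y0 => x.1.2) hy3)
    have hs : sign a = 1 := by revert a; decide +kernel
    let g : Y0 := ⟨(1, a), by rw [mem_Y0]; simp [hs]⟩
    have hg : ψ0 g ∈ normalizer (zpowers z : Set G) := hr0 ▸ ⟨g, rfl⟩
    rcases s1_three hz ((mem_normalizer_iff.1 hg z).1 (mem_zpowers z)) with k | k | k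
    · left
      have : g * y * g⁻¹ = 1 := hψ0 (by rw [map_mul, map_mul, map_inv, hyz, k, map_one])
      exact congrArg (fun x : Y0 => x.1.2) this
    · right; left
      have : g * y * g⁻¹ = y := hψ0 (by rw [map_mul, map_mul, map_inv, hyz, k])
      exact congrArg (fun x : Y0 => x.1.2) this
    · right; right
      have : g * y * g⁻¹ = y ^ 2 := hψ0 (by rw [map_mul, map_mul, map_inv, map_pow, hyz, k])
      exact congrArg (fun x : Y0 => x.1.2) this
  have hya3 : orderOf (ψ0 ya) = 3 := by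
    rw [orderOf_injective ψ0 hψ0]
    exact orderOf_eq_prime (hp := ⟨by norm_num⟩) (Subtype.ext (by decide +kernel))
      (fun h => absurd (congrArg Subtype.val h) (by decide +kernel))
  have hmem : ∀ x ∈ zpowers ya, ψ0 x ∈ zpowers (ψ0 ya) := fun x hx => by
    rw [← MonoidHom.map_zpowers]; exact mem_map_of_mem _ hx
  have hzz : zpowers (ψ0 ya) = zpowers z := by
    refine (eq_of_le_of_card_ge (zpowers_le.2 ?_) (by rw [Nat.card_zpowers, Nat.card_zpowers, hz, hya3])).symm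
    rw [← hyz]
    exact hmem _ (s1_z y (by rw [show 9 = 3 * 3 from rfl, pow_mul, hy3, one_pow]) hy2)
  obtain ⟨d, hd, hdz⟩ : ∃ d ∈ D, d ∉ zpowers z := by
    by_contra hc
    push Not at hc
    have := card_le_of_le (show D ≤ zpowers z from hc)
    rw [h9, Nat.card_zpowers, hz] at this
    omega
  set x := e ⟨d, hDN hd⟩ with hx
  have hxd : ψ0 x = d := hval _
  have hd9 : d ^ 9 = 1 := congrArg Subtype.val (h9 ▸ pow_card_eq_one' (x := (⟨d, hd⟩ : D)))
  have hx9 : x ^ 9 = 1 := hψ0 (by rw [map_pow, hxd, hd9, map_one])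
  have hx2 : x.1.2 ≠ 1 := fun h => hdz (by rw [← hxd, ← hzz]; exact hmem _ (s1_z x hx9 h))
  obtain ⟨a, hs, ha⟩ := s1_c _ (congrArg (fun x : Y0 => x.1.2) hx9) hx2
  let g : Y0 := ⟨(1, a), by rw [mem_Y0]; simp [hs]⟩
  have e1 : g * ya * g⁻¹ = ya := Subtype.ext (Prod.ext (by simp [g]) (by simp [g, ya]))
  have e2 : x * (g * yb * g⁻¹)⁻¹ ∈ zpowers ya := by
    refine s1_z _ (Subtype.ext (Prod.ext ?_ ?_)) ?_
    · have h1 : x.1.1 ^ 9 = 1 := congrArg (fun x : Y0 => x.1.1) hx9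
      simpa [g, yb] using h1
    · show (x.1.2 * (a * (swap 0 1 * swap 1 2) * a⁻¹)⁻¹) ^ 9 = 1
      rw [ha, mul_inv_cancel, one_pow]
    · show x.1.2 * (a * (swap 0 1 * swap 1 2) * a⁻¹)⁻¹ = 1
      rw [ha, mul_inv_cancel]
  have e3 : d * (ψ0 (g * yb * g⁻¹))⁻¹ ∈ zpowers z := by
    rw [← hzz, ← hxd, ← map_inv, ← map_mul]; exact hmem _ e2
  have hzD' : zpowers z ≤ D := zpowers_le.2 hzD
  refine ⟨ψ0.comp (MulAut.conj g).toMonoidHom, hψ0.comp (MulAut.conj g).injective, ?_, ?_, ?_⟩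
  · show _ = normalizer (zpowers (ψ0 (g * ya * g⁻¹)) : Set G)
    rw [e1, hzz, MonoidHom.range_comp, MonoidHom.range_eq_top.2 (MulAut.conj g).surjective,
      ← MonoidHom.range_eq_map, hr0]
  · show zpowers (ψ0 (g * ya * g⁻¹)) = _
    rw [e1, hzz]
  · show closure {ψ0 (g * ya * g⁻¹), ψ0 (g * yb * g⁻¹)} = D
    rw [e1]
    set K := closure ({ψ0 ya, ψ0 (g * yb * g⁻¹)} : Set G) with hK
    have k1 : zpowers z ≤ K := hzz ▸ zpowers_le.2 (subset_closure (by simp))
    have k2 : ψ0 (g * yb * g⁻¹) ∈ K := subset_closure (by simp)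
    have k3 : d ∈ K := by
      have := K.mul_mem (k1 e3) k2
      rwa [inv_mul_cancel_right] at this
    have k4 : K ≤ D := (closure_le _).2 (by
      rintro _ (rfl | rfl)
      · exact hzD' (hzz ▸ mem_zpowers _)
      · have := D.mul_mem (D.inv_mem (hzD' e3)) hd
        simpa using this)
    have k5 : Nat.card K ∣ 3 ^ 2 := (card_dvd_of_le k4).trans (by rw [h9]; norm_num)
    obtain ⟨j, hj, hjK⟩ := (Nat.dvd_prime_pow Nat.prime_three).1 k5
    by_cases j2 : j = 2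
    · exact eq_of_le_of_card_ge k4 (by rw [h9, hjK, j2]; norm_num)
    · exfalso
      refine hdz ((eq_of_le_of_card_ge k1 ?_).ge k3)
      rw [Nat.card_zpowers, hz, hjK]
      have : j ≤ 1 := by omega
      calc 3 ^ j ≤ 3 ^ 1 := Nat.pow_le_pow_right (by norm_num) this
        _ = 3 := rfl

end Cfsg.Agent.A8R
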