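import Cfsg.Agent.A8R.Def

set_option autoImplicit false

namespace Cfsg.Agent.A8R
open Subgroup Equiv Equiv.Perm

universe u

def s2E (i j : Fin 3) : Y0 := ya ^ i.val * yb ^ j.val

theorem s2_mul : ∀ i j k l : Fin 3, s2E i j * s2E k l = s2E (i + k) (j + l) := by decide +kernel
theorem s2_inv : ∀ i j : Fin 3, (s2E i j)⁻¹ = s2E (-i) (-j) := by decide +kernel
theorem s2_t : ∀ i j : Fin 3, yt * s2E i j * yt⁻¹ = s2E i (-j) := by decide +kernel
theorem s2_t' : ∀ i j : Fin 3, yt' * s2E i j * yt'⁻¹ = s2E (-i) j := by decide +kernel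
theorem s2_f2 : ∀ i j : Fin 3, yt * s2E i j * yt⁻¹ = (s2E i j)⁻¹ →
    s2E i j = 1 ∨ s2E i j = yb ∨ s2E i j = yb⁻¹ := by decide +kernel
theorem s2_f3 : ∀ i j : Fin 3, yt' * s2E i j * yt'⁻¹ = (s2E i j)⁻¹ →
    s2E i j = 1 ∨ s2E i j = ya ∨ s2E i j = ya⁻¹ := by decide +kernel
theorem s2_f4 : ∀ i j : Fin 3, yt * yt' * s2E i j = s2E i j * (yt * yt') → s2E i j = 1 := by
  decide +kernel
theorem s2_f5 : ∀ i j : Fin 3, yt' * s2E i j = s2E i j * yt' →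
    s2E i j = 1 ∨ s2E i j = yb ∨ s2E i j = yb⁻¹ := by decide +kernel
theorem s2_f6 : ∀ i j : Fin 3, (s2E i j)⁻¹ * (s2E i j * (yt * yt')) =
    (yt * yt') ∧ s2E i j * (s2E i j * (yt * yt')) * (s2E i j)⁻¹ = yt * yt' := by decide +kernel
theorem s2_a : s2E 1 0 = ya ∧ s2E 0 1 = yb ∧ s2E 0 0 = 1 := by decide +kernel
theorem s2_b : yt * yt = 1 ∧ yt' * yt' = 1 ∧ yt * yt' = yt' * yt ∧ yt * ya = ya * yt ∧
    yt * yb * yt⁻¹ = yb⁻¹ ∧ yt' * ya * yt'⁻¹ = ya⁻¹ ∧ yb ≠ yb⁻¹ ∧ ya ≠ ya⁻¹ ∧ ya ≠ 1 ∧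
    yt * yt' * ya * (yt * yt') = ya⁻¹ ∧ yt * yt' * (yt * yt') = 1 ∧
    yt * yt' * yt * (yt * yt') = yt := by
  refine ⟨?_, ?_, ?_, ?_, ?_, ?_, ?_, ?_, ?_, ?_, ?_, ?_⟩ <;> decide +kernel
theorem s2_c : ∀ i j : Fin 3, yt ≠ s2E i j ∧ yt' ≠ s2E i j ∧ yt * yt' ≠ s2E i j := by
  decide +kernel

theorem s2_d8 : ∀ T T' : DihedralGroup 4, T * T = 1 → T' * T' = 1 → T * T' = T' * T → T ≠ 1 →
    T' ≠ 1 → T * T' ≠ 1 → T ≠ .r 2 → T' ≠ .r 2 →
    ∃ S : DihedralGroup 4, S * S = 1 ∧ S * T * S⁻¹ * T'⁻¹ = 1 ∧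
      S * (T * T') * S⁻¹ * (T * T')⁻¹ = 1 := by decide +kernel

theorem s2_d8' : (DihedralGroup.r 1 * .r 1 * (.r 2)⁻¹ : DihedralGroup 4) = 1 ∧
    (DihedralGroup.r 2 * .r 1 * (.r 2)⁻¹ * (.r 1)⁻¹ : DihedralGroup 4) = 1 := by decide +kernel

theorem s2_mem {G : Type u} [Group G] (ψ : Y0 →* G) {x : G}
    (hx : x ∈ closure ({ψ ya, ψ yb} : Set G)) : ∃ i j, x = ψ (s2E i j) := by
  induction hx using closure_induction with
  | mem x h =>
    rcases h with rfl | rfl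
    · exact ⟨1, 0, by rw [s2_a.1]⟩
    · exact ⟨0, 1, by rw [s2_a.2.1]⟩
  | one => exact ⟨0, 0, by rw [s2_a.2.2, map_one]⟩
  | mul x y _ _ h1 h2 =>
    obtain ⟨i, j, rfl⟩ := h1
    obtain ⟨k, l, rfl⟩ := h2
    exact ⟨_, _, by rw [← map_mul, s2_mul]⟩
  | inv x _ h =>
    obtain ⟨i, j, rfl⟩ := h
    exact ⟨_, _, by rw [← map_inv, s2_inv]⟩

theorem s2_excl {G : Type u} [Group G] (D : Subgroup G)
    (π : normalizer (D : Set G) →* DihedralGroup 4) (πs : Function.Surjective π)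
    (πk : ∀ n, π n = 1 → (n : G) ∈ D) (hc : ∀ x ∈ D, ∀ y ∈ D, x * y = y * x)
    (t : normalizer (D : Set G)) (b : G) (hb : b ∈ D) (h1 : t * b * (t : G)⁻¹ = b⁻¹)
    (h2 : ∀ x ∈ D, t * x * (t : G)⁻¹ = x⁻¹ → x = 1 ∨ x = b ∨ x = b⁻¹) (h3 : b ≠ b⁻¹) :
    π t ≠ .r 2 := fun e => by
  obtain ⟨n, hn⟩ := πs (.r 1)
  have k1 := πk (n * n * t⁻¹) (by rw [map_mul, map_mul, map_inv, hn, e]; exact s2_d8'.1)
  have k2 := πk (t * n * t⁻¹ * n⁻¹) (by
    rw [map_mul, map_mul, map_mul, map_inv, map_inv, hn, e]; exact s2_d8'.2)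
  simp only [Subgroup.coe_mul, Subgroup.coe_inv] at k1 k2
  have hx : (n : G) * b * (n : G)⁻¹ ∈ D := (mem_normalizer_iff.1 n.2 b).1 hb
  have e1 : (t : G) * ((n : G) * b * (n : G)⁻¹) * (t : G)⁻¹ = ((n : G) * b * (n : G)⁻¹)⁻¹ := by
    have := hc _ k2 _ (D.inv_mem hx)
    calc (t : G) * ((n : G) * b * (n : G)⁻¹) * (t : G)⁻¹
        = (t * n * (t : G)⁻¹ * (n : G)⁻¹) * (n * (t * b * (t : G)⁻¹) * (n : G)⁻¹) *
          (t * n * (t : G)⁻¹ * (n : G)⁻¹)⁻¹ := by group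
      _ = (t * n * (t : G)⁻¹ * (n : G)⁻¹) * ((n : G) * b * (n : G)⁻¹)⁻¹ *
          (t * n * (t : G)⁻¹ * (n : G)⁻¹)⁻¹ := by rw [h1]; group
      _ = _ := by rw [this]; group
  have e2 : (n : G) * ((n : G) * b * (n : G)⁻¹) * (n : G)⁻¹ = b⁻¹ := by
    have := hc _ k1 _ (D.inv_mem hb)
    calc (n : G) * ((n : G) * b * (n : G)⁻¹) * (n : G)⁻¹
        = (n * n * (t : G)⁻¹) * (t * b * (t : G)⁻¹) * (n * n * (t : G)⁻¹)⁻¹ := by group
      _ = _ := by rw [h1, this]; group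
  rcases h2 _ hx e1 with k | k | k
  · have : b = 1 := conj_eq_one_iff.1 k
    exact h3 (by rw [this, inv_one])
  · rw [k, k] at e2; exact h3 e2
  · rw [k] at e2
    have : (n : G) * b⁻¹ * (n : G)⁻¹ = ((n : G) * b * (n : G)⁻¹)⁻¹ := by group
    rw [this, k, inv_inv] at e2; exact h3 e2

theorem s2 : S2.{u} := by
  intro G _ _ D ψ hψ hD ⟨e⟩
  obtain ⟨b1, b2, b3, b4, b5, b6, b7, b8, b9, b10, b11, b12⟩ := s2_b
  let π : normalizer (D : Set G) →* DihedralGroup 4 := e.toMonoidHom.comp (QuotientGroup.mk' _)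
  have πs : Function.Surjective π := e.surjective.comp (QuotientGroup.mk'_surjective _)
  have πk : ∀ n, π n = 1 ↔ (n : G) ∈ D := fun n => by
    change e (QuotientGroup.mk n) = 1 ↔ _
    rw [map_eq_one_iff _ e.injective, QuotientGroup.eq_one_iff, mem_subgroupOf]
  have mD : ∀ {x}, x ∈ D → ∃ i j, x = ψ (s2E i j) := fun hx => s2_mem ψ (hD ▸ hx)
  have ha : ψ ya ∈ D := hD ▸ subset_closure (Or.inl rfl)
  have hb : ψ yb ∈ D := hD ▸ subset_closure (Or.inr rfl)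
  have hE : ∀ i j, ψ (s2E i j) ∈ D := fun i j => by
    rw [s2E, map_mul, map_pow, map_pow]; exact mul_mem (pow_mem ha _) (pow_mem hb _)
  have hc : ∀ x ∈ D, ∀ y ∈ D, x * y = y * x := fun x hx y hy => by
    obtain ⟨i, j, rfl⟩ := mD hx
    obtain ⟨k, l, rfl⟩ := mD hy
    rw [← map_mul, ← map_mul, s2_mul, s2_mul, add_comm i, add_comm j]
  have nrm : ∀ y : Y0, y * y = 1 → (∀ i j, ∃ k l, y * s2E i j * y⁻¹ = s2E k l) →
      ψ y ∈ normalizer (D : Set G) := fun y hy h => by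
    have f : ∀ x ∈ D, ψ y * x * (ψ y)⁻¹ ∈ D := fun x hx => by
      obtain ⟨i, j, rfl⟩ := mD hx
      obtain ⟨k, l, e'⟩ := h i j
      rw [← map_inv, ← map_mul, ← map_mul, e']; exact hE _ _
    refine mem_normalizer_iff.2 fun x => ⟨f x, fun hx => ?_⟩
    have h2 : ψ y * ψ y = 1 := by rw [← map_mul, hy, map_one]
    have := f _ hx
    rwa [show ψ y * (ψ y * x * (ψ y)⁻¹) * (ψ y)⁻¹ = (ψ y * ψ y) * x * (ψ y * ψ y)⁻¹ by group, h2,
      one_mul, inv_one, mul_one] at this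
  let t : normalizer (D : Set G) := ⟨ψ yt, nrm _ b1 fun i j => ⟨_, _, s2_t i j⟩⟩
  let t' : normalizer (D : Set G) := ⟨ψ yt', nrm _ b2 fun i j => ⟨_, _, s2_t' i j⟩⟩
  have x1 := s2_excl D π πs (fun n => (πk n).1) hc t (ψ yb) hb
    (by change ψ yt * _ * (ψ yt)⁻¹ = _; rw [← map_inv, ← map_mul, ← map_mul, b5, map_inv])
    (fun x hx h => by
      obtain ⟨i, j, rfl⟩ := mD hx
      change ψ yt * _ * (ψ yt)⁻¹ = _ at h
      rw [← map_inv, ← map_mul, ← map_mul, ← map_inv] at h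
      rcases s2_f2 i j (hψ h) with k | k | k <;> rw [k] <;> simp)
    (fun h => b7 (hψ (by rw [map_inv]; exact h)))
  have x2 := s2_excl D π πs (fun n => (πk n).1) hc t' (ψ ya) ha
    (by change ψ yt' * _ * (ψ yt')⁻¹ = _; rw [← map_inv, ← map_mul, ← map_mul, b6, map_inv])
    (fun x hx h => by
      obtain ⟨i, j, rfl⟩ := mD hx
      change ψ yt' * _ * (ψ yt')⁻¹ = _ at h
      rw [← map_inv, ← map_mul, ← map_mul, ← map_inv] at h
      rcases s2_f3 i j (hψ h) with k | k | k <;> rw [k] <;> simp)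
    (fun h => b8 (hψ (by rw [map_inv]; exact h)))
  have nD : ∀ y : Y0, (∀ i j, y ≠ s2E i j) → ψ y ∉ D := fun y h k => by
    obtain ⟨i, j, e'⟩ := mD k
    exact h i j (hψ e')
  obtain ⟨S, s1, s2, s3⟩ := s2_d8 (π t) (π t')
    (by rw [← map_mul, πk]; change ψ yt * ψ yt ∈ D; rw [← map_mul, b1, map_one]; exact one_mem _)
    (by rw [← map_mul, πk]; change ψ yt' * ψ yt' ∈ D; rw [← map_mul, b2, map_one]; exact one_mem _)
    (by
      rw [← map_mul, ← map_mul]; congr 1; apply Subtype.ext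
      change ψ yt * ψ yt' = ψ yt' * ψ yt; rw [← map_mul, ← map_mul, b3])
    (fun h => nD _ (fun i j => (s2_c i j).1) ((πk t).1 h))
    (fun h => nD _ (fun i j => (s2_c i j).2.1) ((πk t').1 h))
    (fun h => nD _ (fun i j => (s2_c i j).2.2) (by
      rw [← map_mul, πk] at h; rw [map_mul]; exact h)) x1 x2
  obtain ⟨n, rfl⟩ := πs S
  obtain ⟨c, hcd⟩ : ∃ c, c = ψ (yt * yt') := ⟨_, rfl⟩
  have ctt : ψ yt * ψ yt' = c := by rw [hcd, map_mul]
  have k3 : (n : G) * c * (n : G)⁻¹ * c⁻¹ ∈ D := by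
    rw [← ctt]
    exact (πk (n * (t * t') * n⁻¹ * (t * t')⁻¹)).1 (by
      simp only [map_mul, map_inv]; exact s3)
  obtain ⟨i, j, hd⟩ := mD k3
  have f6 := congrArg ψ (s2_f6 i j).2
  rw [map_mul, map_mul, map_mul ψ (s2E i j), map_inv, ← hcd] at f6
  obtain ⟨m, hm⟩ : ∃ m : normalizer (D : Set G), m = ⟨ψ (s2E i j), le_normalizer (hE i j)⟩ * n :=
    ⟨_, rfl⟩
  have hπ : π m = π n := by rw [hm, map_mul, (πk ⟨_, _⟩).2 (hE i j), one_mul]
  have hmv : (m : G) = ψ (s2E i j) * n := by rw [hm]; rfl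
  have mc : (m : G) * c = c * m := by
    have : (n : G) * c * (n : G)⁻¹ = ψ (s2E i j) * c := by rw [← hd]; group
    rw [← this] at f6
    rw [hmv]
    calc ψ (s2E i j) * n * c = ψ (s2E i j) * (n * c * (n : G)⁻¹) * (ψ (s2E i j))⁻¹ *
          (ψ (s2E i j) * n) := by group
      _ = _ := by rw [f6]
  rw [← hπ] at s1 s2
  have triv : ∀ x ∈ D, c * x = x * c → x = 1 := fun x hx h => by
    obtain ⟨k, l, rfl⟩ := mD hx
    rw [hcd, ← map_mul, ← map_mul] at h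
    rw [s2_f4 k l (hψ h), map_one]
  have cm : Commute c (m : G) := mc.symm
  have ct : Commute c (ψ yt) := by
    rw [hcd]; refine Commute.map ?_ ψ
    change _ = _; rw [mul_assoc, ← b3]
  have ct' : Commute c (ψ yt') := by
    rw [hcd]; refine Commute.map ?_ ψ
    change _ = _; rw [← mul_assoc, ← b3]
  have m1 : (m : G) * m = 1 := triv _ ((πk (m * m)).1 (by rw [map_mul]; exact s1)) (cm.mul_right cm)
  have mi : (m : G)⁻¹ = m := inv_eq_of_mul_eq_one_right m1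
  have m2 : (m : G) * ψ yt * m = ψ yt' := by
    have := triv _ ((πk (m * t * m⁻¹ * t'⁻¹)).1 (by simp only [map_mul, map_inv]; exact s2))
      (((cm.mul_right ct).mul_right cm.inv_right).mul_right ct'.inv_right)
    change (m : G) * ψ yt * (m : G)⁻¹ * (ψ yt')⁻¹ = 1 at this
    rw [mi] at this
    exact mul_inv_eq_one.1 this
  have hx : (m : G) * ψ ya * (m : G)⁻¹ ∈ D := (mem_normalizer_iff.1 m.2 _).1 ha
  obtain ⟨k, l, hkl⟩ := mD hx
  have ta : ψ yt * ψ ya = ψ ya * ψ yt := by rw [← map_mul, ← map_mul, b4]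
  have e5 : ψ yt' * ψ (s2E k l) = ψ (s2E k l) * ψ yt' := by
    have m3 : (m : G) * ψ yt * (m : G)⁻¹ = ψ yt' := by rw [mi, m2]
    rw [← hkl, ← m3]
    calc _ = (m : G) * (ψ yt * ψ ya) * (m : G)⁻¹ := by group
      _ = _ := by rw [ta]; group
  rw [← map_mul, ← map_mul] at e5
  rcases s2_f5 k l (hψ e5) with q | q | q
  · rw [q, map_one] at hkl
    have : ψ ya = ψ 1 := (conj_eq_one_iff.1 hkl).trans (map_one ψ).symm
    exact (b9 (hψ this)).elim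
  · exact ⟨m, m1, m2, by rw [← q, ← hkl, mi]⟩
  · have cc : c * c = 1 := by rw [hcd, ← map_mul, b11, map_one]
    have c1 : c * ψ yt * c = ψ yt := by rw [hcd, ← map_mul, ← map_mul, b12]
    have c2 : c * ψ ya * c = (ψ ya)⁻¹ := by rw [hcd, ← map_mul, ← map_mul, b10, map_inv]
    refine ⟨m * c, ?_, ?_, ?_⟩
    · calc (m : G) * c * (m * c) = m * (c * m) * c := by group
        _ = (m * m) * (c * c) := by rw [← mc]; group
        _ = 1 := by rw [m1, cc, one_mul]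
    · calc (m : G) * c * ψ yt * (m * c) = m * c * ψ yt * (c * m) := by rw [← mc]
        _ = m * (c * ψ yt * c) * m := by simp only [mul_assoc]
        _ = _ := by rw [c1, m2]
    · calc (m : G) * c * ψ ya * (m * c) = m * c * ψ ya * (c * m) := by rw [← mc]
        _ = m * (c * ψ ya * c) * m := by simp only [mul_assoc]
        _ = ((m : G) * ψ ya * (m : G)⁻¹)⁻¹ := by rw [c2, mi, mul_inv_rev, mul_inv_rev, mi, mul_assoc]
        _ = _ := by rw [hkl, q, map_inv, inv_inv]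

end Cfsg.Agent.A8R
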