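import Cfsg.Agent.A8R.Def

set_option autoImplicit false

namespace Cfsg.Agent.A8R
open Subgroup Equiv Equiv.Perm

universe u

theorem syls_conj {x y : A8} (hx : Commute (swap (0 : Fin 8) 1) (x : Perm (Fin 8)))
    (h : (x : Perm (Fin 8)).cycleType = (y : Perm (Fin 8)).cycleType) : IsConj x y := by
  obtain ⟨k, hk⟩ := isConj_iff.1 (isConj_iff_cycleType_eq.2 h)
  rcases Int.units_eq_one_or (sign k) with e | e
  · exact isConj_iff.2 ⟨⟨k, mem_alternatingGroup.2 e⟩, Subtype.ext hk⟩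
  · refine isConj_iff.2 ⟨⟨k * swap 0 1, mem_alternatingGroup.2 ?_⟩, Subtype.ext ?_⟩
    · rw [map_mul, e, sign_swap (by decide)]; decide
    · show k * swap 0 1 * (x : Perm (Fin 8)) * (k * swap 0 1)⁻¹ = (y : Perm (Fin 8))
      rw [← hk, mul_assoc k, hx.eq]; group

theorem syls_ct {x : A8} (h2 : x * x = 1) (h1 : x ≠ 1) :
    ((x : Perm (Fin 8)).cycleType = Multiset.replicate 2 2 ∧ (x : Perm (Fin 8)).support.card = 4) ∨
    ((x : Perm (Fin 8)).cycleType = Multiset.replicate 4 2 ∧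
      (x : Perm (Fin 8)).support.card = 8) := by
  have h2' : (x : Perm (Fin 8)) ^ 2 = 1 := by
    rw [sq]; exact congrArg Subtype.val h2
  have e := cycleType_of_pow_prime_eq_one (p := 2) h2'
  have s := sign_of_cycleType (x : Perm (Fin 8))
  have c := sum_cycleType (x : Perm (Fin 8))
  have l : (x : Perm (Fin 8)).support.card ≤ 8 := (Finset.card_le_univ _).trans (by simp)
  have z : Multiset.card (x : Perm (Fin 8)).cycleType ≠ 0 := fun k =>
    h1 (Subtype.ext (card_cycleType_eq_zero.1 k))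
  rw [mem_alternatingGroup.1 x.2] at s
  generalize Multiset.card (x : Perm (Fin 8)).cycleType = n at e s z
  rw [e, Multiset.sum_replicate, smul_eq_mul] at c s
  have : n ≤ 4 := by omega
  interval_cases n
  · exact absurd rfl z
  · exact absurd s (by decide)
  · exact Or.inl ⟨e, c.symm⟩
  · exact absurd s (by decide)
  · exact Or.inr ⟨e, c.symm⟩

theorem syls_cl {x : A8} (h2 : x * x = 1) (h1 : x ≠ 1) :
    (IsConj u1 x ∧ (x : Perm (Fin 8)).support.card = 4) ∨
    (IsConj (u1 * v1) x ∧ (x : Perm (Fin 8)).support.card = 8) := by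
  have a1 : ((u1 : A8) : Perm (Fin 8)).cycleType = Multiset.replicate 2 2 := by
    rcases syls_ct (x := u1) (by decide) (by decide) with k | k
    · exact k.1
    · exact absurd k.2 (by decide)
  have a2 : ((u1 * v1 : A8) : Perm (Fin 8)).cycleType = Multiset.replicate 4 2 := by
    rcases syls_ct (x := u1 * v1) (by decide) (by decide) with k | k
    · exact absurd k.2 (by decide)
    · exact k.1
  rcases syls_ct h2 h1 with k | k
  · exact Or.inl ⟨syls_conj (by unfold Commute SemiconjBy; decide) (a1.trans k.1.symm), k.2⟩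
  · exact Or.inr ⟨syls_conj (by unfold Commute SemiconjBy; decide) (a2.trans k.1.symm), k.2⟩

theorem syls_fun : ∀ p q r s : Fin 8, p ∈ ({4, 5, 6, 7} : Finset (Fin 8)) \ {4} →
    q ∈ ({4, 5, 6, 7} : Finset (Fin 8)) \ {5} → r ∈ ({4, 5, 6, 7} : Finset (Fin 8)) \ {6} →
    s ∈ ({4, 5, 6, 7} : Finset (Fin 8)) \ {7} →
    ![0, 1, 2, 3, p, q, r, s] p = 4 → ![0, 1, 2, 3, p, q, r, s] q = 5 →
    ![0, 1, 2, 3, p, q, r, s] r = 6 →
    (p = 5 ∧ q = 4 ∧ r = 7 ∧ s = 6) ∨ (p = 6 ∧ q = 7 ∧ r = 4 ∧ s = 5) ∨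
      (p = 7 ∧ q = 6 ∧ r = 5 ∧ s = 4) := by
  intro p q r s hp hq hr hs
  simp only [Finset.mem_sdiff, Finset.mem_insert, Finset.mem_singleton] at hp hq hr hs
  rcases hp.1 with rfl | rfl | rfl | rfl <;> rcases hq.1 with rfl | rfl | rfl | rfl <;>
    rcases hr.1 with rfl | rfl | rfl | rfl <;> rcases hs.1 with rfl | rfl | rfl | rfl <;>
    first
      | exact absurd rfl hp.2
      | exact absurd rfl hq.2
      | exact absurd rfl hr.2
      | exact absurd rfl hs.2
      | decide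

theorem syls_three {a : A8} (h2 : a * a = 1) (h4 : (a : Perm (Fin 8)).support.card = 4)
    (h8 : ((u1 * a : A8) : Perm (Fin 8)).support.card = 8) : a = v1 ∨ a = v2 ∨ a = v1 * v2 := by
  have hu : ((u1 * a : A8) : Perm (Fin 8)).support = Finset.univ :=
    Finset.eq_univ_of_card _ (by simpa using h8)
  have hs : ({4, 5, 6, 7} : Finset (Fin 8)) ⊆ (a : Perm (Fin 8)).support := fun i hi => by
    rw [mem_support]
    intro e
    have : i ∈ ((u1 * a : A8) : Perm (Fin 8)).support := hu ▸ Finset.mem_univ _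
    rw [mem_support] at this
    apply this
    show (u1 : Perm (Fin 8)) ((a : Perm (Fin 8)) i) = i
    rw [e]
    exact (by decide : ∀ i ∈ ({4, 5, 6, 7} : Finset (Fin 8)), (u1 : Perm (Fin 8)) i = i) i hi
  have he : ({4, 5, 6, 7} : Finset (Fin 8)) = (a : Perm (Fin 8)).support :=
    Finset.eq_of_subset_of_card_le hs (by rw [h4]; decide)
  have fx : ∀ i, i ∉ ({4, 5, 6, 7} : Finset (Fin 8)) → (a : Perm (Fin 8)) i = i := fun i hi => by
    rwa [he, notMem_support] at hi
  have mv : ∀ i ∈ ({4, 5, 6, 7} : Finset (Fin 8)),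
      (a : Perm (Fin 8)) i ∈ ({4, 5, 6, 7} : Finset (Fin 8)) \ {i} := fun i hi => by
    rw [Finset.mem_sdiff, Finset.mem_singleton]
    rw [he] at hi ⊢
    exact ⟨apply_mem_support.2 hi, mem_support.1 hi⟩
  have fa : ∀ i, (a : Perm (Fin 8)) i = ![0, 1, 2, 3, (a : Perm (Fin 8)) 4, (a : Perm (Fin 8)) 5,
      (a : Perm (Fin 8)) 6, (a : Perm (Fin 8)) 7] i := fun i => by
    fin_cases i
    · exact fx 0 (by decide)
    · exact fx 1 (by decide)
    · exact fx 2 (by decide)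
    · exact fx 3 (by decide)
    all_goals rfl
  have aa : ∀ i, (a : Perm (Fin 8)) ((a : Perm (Fin 8)) i) = i := fun i =>
    congrArg (fun y : A8 => (y : Perm (Fin 8)) i) h2
  rcases syls_fun _ _ _ _ (mv 4 (by decide)) (mv 5 (by decide)) (mv 6 (by decide))
    (mv 7 (by decide)) ((fa _).symm.trans (aa 4)) ((fa _).symm.trans (aa 5))
    ((fa _).symm.trans (aa 6)) with ⟨p, q, r, s⟩ | ⟨p, q, r, s⟩ | ⟨p, q, r, s⟩
  · left
    refine Subtype.ext (Equiv.ext fun i => ?_)
    rw [fa i, p, q, r, s]; revert i; decide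
  · right; left
    refine Subtype.ext (Equiv.ext fun i => ?_)
    rw [fa i, p, q, r, s]; revert i; decide
  · right; right
    refine Subtype.ext (Equiv.ext fun i => ?_)
    rw [fa i, p, q, r, s]; revert i; decide

theorem syls_pair {a b : A8} (ha : a = v1 ∨ a = v2 ∨ a = v1 * v2)
    (hb : b = v1 ∨ b = v2 ∨ b = v1 * v2) (hab : a ≠ b) :
    ∃ h : A8, h * v1 * h⁻¹ = a ∧ h * v2 * h⁻¹ = b := by
  rcases ha with rfl | rfl | rfl <;> rcases hb with rfl | rfl | rfl <;>
    first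
      | exact absurd rfl hab
      | exact ⟨1, by decide, by decide⟩
      | exact ⟨⟨swap 0 1 * swap 5 6, by rw [mem_alternatingGroup]; decide⟩, by decide, by decide⟩
      | exact ⟨⟨swap 0 1 * swap 5 7, by rw [mem_alternatingGroup]; decide⟩, by decide, by decide⟩
      | exact ⟨⟨swap 0 1 * swap 6 7, by rw [mem_alternatingGroup]; decide⟩, by decide, by decide⟩
      | exact ⟨⟨swap 5 6 * swap 6 7, by rw [mem_alternatingGroup]; decide⟩, by decide, by decide⟩
      | exact ⟨⟨swap 6 7 * swap 5 6, by rw [mem_alternatingGroup]; decide⟩, by decide, by decide⟩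

variable {G : Type u} [Group G]

theorem syls_q (E : Emb G) (n : ¬ IsConj (E.φ (u1 * v1)) (E.φ u1)) {g : G}
    (hg : g * E.φ u1 * g⁻¹ = E.φ u1) {v a : A8} (v2' : v * v = 1) (v1' : v ≠ 1)
    (w2 : u1 * v * (u1 * v) = 1) (w1 : u1 * v ≠ 1)
    (c4 : (v : Perm (Fin 8)).support.card = 4) (c8 : ((u1 * v : A8) : Perm (Fin 8)).support.card = 8)
    (ha : E.φ a = g * E.φ v * g⁻¹) : a = v1 ∨ a = v2 ∨ a = v1 * v2 := by
  have hb : E.φ (u1 * a) = g * E.φ (u1 * v) * g⁻¹ := by
    rw [map_mul, map_mul, ha]; conv_lhs => rw [← hg]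
    group
  have inv : ∀ x y : A8, E.φ x = g * E.φ y * g⁻¹ → y * y = 1 → y ≠ 1 → x * x = 1 ∧ x ≠ 1 :=
    fun x y e k1 k2 => ⟨E.φi (by
      rw [map_mul, e, map_one]
      calc _ = g * E.φ (y * y) * g⁻¹ := by rw [map_mul]; group
        _ = 1 := by rw [k1, map_one]; group), fun k => k2 (E.φi (by
      rw [k, map_one] at e
      rw [map_one]
      calc _ = g⁻¹ * (g * E.φ y * g⁻¹) * g := by group
        _ = 1 := by rw [← e]; group))⟩
  obtain ⟨a2, a1⟩ := inv _ _ ha v2' v1'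
  obtain ⟨b2, b1⟩ := inv _ _ hb w2 w1
  have k1 : IsConj u1 v := ((syls_cl v2' v1').resolve_right fun k => by omega).1
  have k2 : IsConj (u1 * v1) (u1 * v) := ((syls_cl w2 w1).resolve_left fun k => by omega).1
  refine syls_three a2 ((syls_cl a2 a1).resolve_right fun k => n ?_).2
    ((syls_cl b2 b1).resolve_left fun k => n ?_).2
  · exact ((E.φ.map_isConj k.1).trans (isConj_iff.2 ⟨g, ha.symm⟩).symm).trans
      (E.φ.map_isConj k1).symm
  · exact ((E.φ.map_isConj k2).trans (isConj_iff.2 ⟨g, hb.symm⟩)).trans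
      (E.φ.map_isConj k.1).symm

theorem syls_g (E : Emb G) (n : ¬ IsConj (E.φ (u1 * v1)) (E.φ u1))
    (c : centralizer ({E.φ v1, E.φ v2} : Set G) ≤ E.φ.range) {g : G}
    (h0 : g * E.φ u1 * g⁻¹ ∈ E.φ.range) (h1 : g * E.φ v1 * g⁻¹ ∈ E.φ.range)
    (h2 : g * E.φ v2 * g⁻¹ ∈ E.φ.range) : g ∈ E.φ.range := by
  obtain ⟨x, hx⟩ := h0
  obtain ⟨a, ha⟩ := h1
  obtain ⟨b, hb⟩ := h2
  have x2 : x * x = 1 := E.φi (by
    rw [map_mul, hx, map_one]
    calc _ = g * E.φ (u1 * u1) * g⁻¹ := by rw [map_mul]; group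
      _ = 1 := by rw [show u1 * u1 = 1 by decide, map_one]; group)
  have x1 : x ≠ 1 := fun k => (show u1 ≠ 1 by decide) (E.φi (by
    rw [k, map_one] at hx
    rw [map_one]
    calc _ = g⁻¹ * (g * E.φ u1 * g⁻¹) * g := by group
      _ = 1 := by rw [← hx]; group))
  obtain ⟨k, hk⟩ := isConj_iff.1 ((syls_cl x2 x1).resolve_right fun k =>
    n ((E.φ.map_isConj k.1).trans (isConj_iff.2 ⟨g, hx.symm⟩).symm)).1
  have tr : ∀ y z : A8, E.φ y = g * E.φ z * g⁻¹ →
      E.φ (k⁻¹ * y * k) = ((E.φ k)⁻¹ * g) * E.φ z * ((E.φ k)⁻¹ * g)⁻¹ := fun y z e => by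
    rw [map_mul, map_mul, map_inv, e]; group
  have hg : ((E.φ k)⁻¹ * g) * E.φ u1 * ((E.φ k)⁻¹ * g)⁻¹ = E.φ u1 := by
    rw [← tr _ _ hx, ← hk]; congr 1; group
  have ha' := tr _ _ ha
  have hb' := tr _ _ hb
  obtain ⟨h, e1, e2⟩ := syls_pair
    (syls_q E n hg (by decide) (by decide) (by decide) (by decide) (by decide) (by decide) ha')
    (syls_q E n hg (by decide) (by decide) (by decide) (by decide) (by decide) (by decide) hb')
    fun e => (show v1 ≠ v2 by decide) (E.φi (by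
      rw [e, hb'] at ha'
      exact (mul_left_cancel (mul_right_cancel ha')).symm))
  have key : ∀ z y : A8, h * z * h⁻¹ = y →
      E.φ y = ((E.φ k)⁻¹ * g) * E.φ z * ((E.φ k)⁻¹ * g)⁻¹ →
      E.φ z * ((E.φ h)⁻¹ * ((E.φ k)⁻¹ * g)) = ((E.φ h)⁻¹ * ((E.φ k)⁻¹ * g)) * E.φ z :=
    fun z y e f => by
      rw [← e, map_mul, map_mul, map_inv] at f
      calc _ = (E.φ h)⁻¹ * (E.φ h * E.φ z * (E.φ h)⁻¹) * ((E.φ k)⁻¹ * g) := by group
        _ = _ := by rw [f]; group
  have m : (E.φ h)⁻¹ * ((E.φ k)⁻¹ * g) ∈ E.φ.range := c (by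
    rintro _ (rfl | rfl)
    · exact key _ _ e1 ha'
    · exact key _ _ e2 hb')
  have := mul_mem (⟨k, rfl⟩ : E.φ k ∈ E.φ.range) (mul_mem (⟨h, rfl⟩ : E.φ h ∈ E.φ.range) m)
  simpa using this

theorem syls (c : CENU.{u}) (n : NCJ.{u}) : SYL.{u} := by
  intro G _ _ E h128
  haveI : Fact (Nat.Prime 2) := ⟨Nat.prime_two⟩
  have c' : centralizer ({E.φ v1, E.φ v2} : Set G) ≤ E.φ.range := by simpa using c G E 1
  have hA : IsPGroup 2 ↥(closure ({u1, v1, v2} : Set A8)) := by
    rintro ⟨x, hx⟩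
    refine ⟨1, Subtype.ext ?_⟩
    have : x ∈ ({1, u1, v1, v2, u1 * v1, u1 * v2, v1 * v2, u1 * v1 * v2} : Finset A8) := by
      induction hx using closure_induction with
      | mem x hx => rcases hx with rfl | rfl | rfl <;> decide
      | one => decide
      | mul x y _ _ hx hy => revert hy; revert y; revert hx; revert x
                             intro x _ hx y _ hy
                             fin_cases hx <;> fin_cases hy <;> decide
      | inv x _ hx => fin_cases hx <;> decide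
    show x ^ 2 ^ 1 = 1
    fin_cases this <;> decide
  obtain ⟨T, hT⟩ := hA.exists_le_sylow
  obtain ⟨P, hP⟩ := (T.isPGroup'.map E.φ).exists_le_sylow
  have hlt : ((T : Subgroup A8).map E.φ).subgroupOf P < ⊤ := by
    refine lt_top_iff_ne_top.2 fun e => ?_
    have e' : (P : Subgroup G) = (T : Subgroup A8).map E.φ :=
      le_antisymm (subgroupOf_eq_top.1 e) hP
    have d1 : 2 ^ 7 ∣ Nat.card (P : Subgroup G) := P.pow_dvd_card_of_pow_dvd_card h128
    rw [e', card_map_of_injective E.φi] at d1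
    have d2 := d1.trans (card_subgroup_dvd_card (T : Subgroup A8))
    have d3 := two_mul_nat_card_alternatingGroup (α := Fin 8)
    rw [Nat.card_perm, Nat.card_eq_fintype_card (α := Fin 8), Fintype.card_fin] at d3
    have d4 : Nat.card A8 = 20160 := by
      have : Nat.factorial 8 = 40320 := by decide
      unfold A8; omega
    rw [d4] at d2
    exact absurd d2 (by decide)
  haveI := P.isPGroup'.isNilpotent
  obtain ⟨g, g1, g2⟩ := SetLike.exists_of_lt (normalizerCondition_of_isNilpotent _ hlt)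
  have cj : ∀ x ∈ ({u1, v1, v2} : Set A8), (g : G) * E.φ x * (g : G)⁻¹ ∈ E.φ.range := fun x hx => by
    have m : E.φ x ∈ (T : Subgroup A8).map E.φ := mem_map_of_mem _ (hT (subset_closure hx))
    exact map_le_range _ _ ((mem_normalizer_iff.1 g1 ⟨E.φ x, hP m⟩).1 m)
  obtain ⟨y, hy⟩ := syls_g E (n G E).1 c' (cj _ (by simp)) (cj _ (by simp)) (cj _ (by simp))
  have e : (P : Subgroup G).comap E.φ = T :=
    T.is_maximal' (P.isPGroup'.comap_of_injective E.φ E.φi) (map_le_iff_le_comap.1 hP)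
  refine g2 (mem_subgroupOf.2 ⟨y, ?_, hy⟩)
  show y ∈ (T : Subgroup A8)
  rw [← e, mem_comap, hy]
  exact g.2

end Cfsg.Agent.A8R
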