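import Cfsg.Agent.A8R.Def

set_option autoImplicit false

namespace Cfsg.Agent.A8R
open Subgroup Equiv Equiv.Perm

universe u

theorem y_a3 : ya ^ 3 = 1 := by apply Subtype.ext; decide
theorem y_b3 : yb ^ 3 = 1 := by apply Subtype.ext; decide
theorem y_ab : ya * yb = yb * ya := by apply Subtype.ext; decide
theorem y_ta : yt * ya = ya * yt := by apply Subtype.ext; decide
theorem y_tb : yt * yb * yt⁻¹ = yb⁻¹ := by apply Subtype.ext; decide
theorem y_t'a : yt' * ya * yt'⁻¹ = ya⁻¹ := by apply Subtype.ext; decide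
theorem y_t'b : yt' * yb * yt'⁻¹ = yb := by apply Subtype.ext; decide
theorem y_ta' : yt * ya * yt⁻¹ = ya := by apply Subtype.ext; decide
theorem y_tt : yt * yt = 1 := by apply Subtype.ext; decide
theorem y_a1 : ya ≠ 1 := by intro h; have := congrArg Subtype.val h; revert this; decide
theorem y_t1 : yt ≠ 1 := by intro h; have := congrArg Subtype.val h; revert this; decide

section
variable {G : Type u} [Group G]

theorem card_cent_conj {x y : G} (h : IsConj x y) :
    Nat.card (centralizer ({x} : Set G)) = Nat.card (centralizer ({y} : Set G)) := by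
  obtain ⟨g, hg⟩ := isConj_iff.1 h
  refine Nat.card_congr ⟨fun c => ⟨g * c * g⁻¹, ?_⟩, fun c => ⟨g⁻¹ * c * g, ?_⟩, fun c => ?_, fun c => ?_⟩
  · have := mem_centralizer_singleton_iff.1 c.2
    rw [mem_centralizer_singleton_iff, ← hg]
    calc g * c * g⁻¹ * (g * x * g⁻¹) = g * (c * x) * g⁻¹ := by group
      _ = _ := by rw [this]; group
  · have := mem_centralizer_singleton_iff.1 c.2
    have hx : x = g⁻¹ * y * g := by rw [← hg]; group
    rw [mem_centralizer_singleton_iff, hx]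
    calc g⁻¹ * c * g * (g⁻¹ * y * g) = g⁻¹ * (c * y) * g := by group
      _ = _ := by rw [this]; group
  · apply Subtype.ext; simp only; group
  · apply Subtype.ext; simp only; group

theorem cent_inv (x : G) : centralizer ({x⁻¹} : Set G) = centralizer {x} := by
  ext c
  rw [mem_centralizer_singleton_iff, mem_centralizer_singleton_iff]
  exact ⟨fun h => by simpa using (Commute.inv_right (show Commute c x⁻¹ from h)).eq,
    fun h => (Commute.inv_right (show Commute c x from h)).eq⟩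

theorem mem_zp3 {x c : G} (h3 : x ^ 3 = 1) (hc : c ∈ zpowers x) : c = 1 ∨ c = x ∨ c = x⁻¹ := by
  obtain ⟨k, rfl⟩ := mem_zpowers_iff.1 hc
  have h3' : x ^ (3 : ℤ) = 1 := by exact_mod_cast h3
  have hk : x ^ k = x ^ (k % 3) := by
    conv_lhs => rw [← Int.emod_add_mul_ediv k 3, zpow_add, zpow_mul, h3', one_zpow, mul_one]
  have h2 : x ^ (2 : ℤ) = x⁻¹ := by
    rw [eq_inv_iff_mul_eq_one, ← h3']; group
  have : k % 3 = 0 ∨ k % 3 = 1 ∨ k % 3 = 2 := by omega
  rcases this with h | h | h <;> rw [hk, h]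
  · simp
  · simp
  · simp [h2]

theorem mem_cl2 {a b d : G} (hab : Commute a b) (hd : d ∈ closure ({a, b} : Set G)) :
    ∃ x ∈ zpowers a, ∃ y ∈ zpowers b, d = x * y := by
  induction hd using closure_induction with
  | mem x hx =>
    rcases hx with rfl | rfl
    · exact ⟨x, mem_zpowers x, 1, one_mem _, by simp⟩
    · exact ⟨1, one_mem _, x, mem_zpowers x, by simp⟩
  | one => exact ⟨1, one_mem _, 1, one_mem _, by simp⟩
  | mul x y _ _ hx hy =>
    obtain ⟨x1, h1, x2, h2, rfl⟩ := hx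
    obtain ⟨y1, h3, y2, h4, rfl⟩ := hy
    refine ⟨x1 * y1, mul_mem h1 h3, x2 * y2, mul_mem h2 h4, ?_⟩
    obtain ⟨i, rfl⟩ := mem_zpowers_iff.1 h2
    obtain ⟨j, rfl⟩ := mem_zpowers_iff.1 h3
    have := (hab.zpow_zpow j i).eq
    calc x1 * b ^ i * (a ^ j * y2) = x1 * (b ^ i * a ^ j) * y2 := by group
      _ = _ := by rw [← this]; group
  | inv x _ hx =>
    obtain ⟨x1, h1, x2, h2, rfl⟩ := hx
    refine ⟨x1⁻¹, inv_mem h1, x2⁻¹, inv_mem h2, ?_⟩
    obtain ⟨i, rfl⟩ := mem_zpowers_iff.1 h1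
    obtain ⟨j, rfl⟩ := mem_zpowers_iff.1 h2
    have := (hab.zpow_zpow i j).inv_inv.eq
    rw [mul_inv_rev, this]

/-- every element of `D` outside the two axes is conjugate to `ψ a * ψ b` inside `N(D)` -/
theorem ytype (ψ : Y0 →* G) {d : G} (hd : d ∈ closure ({ψ ya, ψ yb} : Set G))
    (h1 : d ∉ zpowers (ψ ya)) (h2 : d ∉ zpowers (ψ yb)) :
    ∃ g ∈ normalizer ((closure {ψ ya, ψ yb} : Subgroup G) : Set G), g * (ψ ya * ψ yb) * g⁻¹ = d := by
  have hab : Commute (ψ ya) (ψ yb) := by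
    show _ = _; rw [← map_mul, ← map_mul, y_ab]
  have ha3 : ψ ya ^ 3 = 1 := by rw [← map_pow, y_a3, map_one]
  have hb3 : ψ yb ^ 3 = 1 := by rw [← map_pow, y_b3, map_one]
  have e1 : ψ yt * ψ ya * (ψ yt)⁻¹ = ψ ya := by rw [← map_inv, ← map_mul, ← map_mul, y_ta']
  have e2 : ψ yt * ψ yb * (ψ yt)⁻¹ = (ψ yb)⁻¹ := by rw [← map_inv, ← map_mul, ← map_mul, y_tb, map_inv]
  have e3 : ψ yt' * ψ ya * (ψ yt')⁻¹ = (ψ ya)⁻¹ := by rw [← map_inv, ← map_mul, ← map_mul, y_t'a, map_inv]
  have e4 : ψ yt' * ψ yb * (ψ yt')⁻¹ = ψ yb := by rw [← map_inv, ← map_mul, ← map_mul, y_t'b]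
  have ha : ψ ya ∈ closure ({ψ ya, ψ yb} : Set G) := subset_closure (by simp)
  have hb : ψ yb ∈ closure ({ψ ya, ψ yb} : Set G) := subset_closure (by simp)
  have nrm : ∀ g : G, g * g = 1 → g * ψ ya * g⁻¹ ∈ closure ({ψ ya, ψ yb} : Set G) →
      g * ψ yb * g⁻¹ ∈ closure ({ψ ya, ψ yb} : Set G) →
      g ∈ normalizer ((closure {ψ ya, ψ yb} : Subgroup G) : Set G) := by
    intro g hg h1 h2
    have key : ∀ x ∈ closure ({ψ ya, ψ yb} : Set G), g * x * g⁻¹ ∈ closure ({ψ ya, ψ yb} : Set G) := by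
      intro x hx
      induction hx using closure_induction with
      | mem x hx => rcases hx with rfl | rfl <;> assumption
      | one => simp
      | mul x y _ _ hx hy => have := mul_mem hx hy; convert this using 1; group
      | inv x _ hx => have := inv_mem hx; convert this using 1; group
    have hi : g⁻¹ = g := inv_eq_of_mul_eq_one_right hg
    rw [mem_normalizer_iff]
    intro x
    refine ⟨key x, fun h => ?_⟩
    have := key _ h
    rwa [show g * (g * x * g⁻¹) * g⁻¹ = x by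
      calc g * (g * x * g⁻¹) * g⁻¹ = (g * g) * x * (g * g)⁻¹ := by group
        _ = x := by rw [hg]; simp] at this
  have n1 := nrm (ψ yt) (by rw [← map_mul, y_tt, map_one]) (by rw [e1]; exact ha) (by rw [e2]; exact inv_mem hb)
  have n2 := nrm (ψ yt') (by rw [← map_mul, show yt' * yt' = 1 by apply Subtype.ext; decide, map_one])
    (by rw [e3]; exact inv_mem ha) (by rw [e4]; exact hb)
  have cj : ∀ g x y : G, g * (x * y) * g⁻¹ = (g * x * g⁻¹) * (g * y * g⁻¹) := fun g x y => by group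
  obtain ⟨x, hx, y, hy, rfl⟩ := mem_cl2 hab hd
  rcases mem_zp3 ha3 hx with rfl | rfl | rfl
  · exact absurd (by simpa using hy) h2
  · rcases mem_zp3 hb3 hy with rfl | rfl | rfl
    · exact absurd (by simp) h1
    · exact ⟨1, one_mem _, by simp⟩
    · exact ⟨_, n1, by rw [cj, e1, e2]⟩
  · rcases mem_zp3 hb3 hy with rfl | rfl | rfl
    · exact absurd (by simp) h1
    · exact ⟨_, n2, by rw [cj, e3, e4]⟩
    · refine ⟨ψ yt * ψ yt', mul_mem n1 n2, ?_⟩
      have : ψ yt * ψ yt' * (ψ ya * ψ yb) * (ψ yt * ψ yt')⁻¹ =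
        ψ yt * (ψ yt' * (ψ ya * ψ yb) * (ψ yt')⁻¹) * (ψ yt)⁻¹ := by group
      have e5 : ψ yt * (ψ ya)⁻¹ * (ψ yt)⁻¹ = (ψ ya)⁻¹ := by
        conv_rhs => rw [← e1]
        group
      rw [this, cj (ψ yt'), e3, e4, cj, e2, e5]

variable [Finite G]

/-- two elements of order 3 in a subgroup whose order is not divisible by 9 have centralisers of equal order -/
theorem set_cent_eq (C : Subgroup G) (h9 : ¬ 9 ∣ Nat.card C) {x y : G} (hx : x ∈ C) (hy : y ∈ C)
    (x3 : orderOf x = 3) (y3 : orderOf y = 3) :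
    Nat.card (centralizer ({x} : Set G)) = Nat.card (centralizer ({y} : Set G)) := by
  have : Fact (Nat.Prime 3) := ⟨Nat.prime_three⟩
  have pg : ∀ w : C, orderOf (w : G) = 3 → IsPGroup 3 (zpowers w) := fun w hw =>
    IsPGroup.of_card (n := 1) (by rw [Nat.card_zpowers, ← Subgroup.orderOf_coe, hw]; rfl)
  obtain ⟨P, hP⟩ := (pg ⟨x, hx⟩ x3).exists_le_sylow
  obtain ⟨Q, hQ⟩ := (pg ⟨y, hy⟩ y3).exists_le_sylow
  have cP : ∀ (R : Sylow 3 C) (w : C), orderOf (w : G) = 3 → zpowers w ≤ R → zpowers w = R := by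
    intro R w hw hle
    obtain ⟨n, hn⟩ := R.isPGroup'.exists_card_eq
    have h1 : Nat.card (zpowers w) = 3 := by rw [Nat.card_zpowers, ← Subgroup.orderOf_coe, hw]
    have hn1 : n ≤ 1 := by
      by_contra h
      exact h9 (((pow_dvd_pow 3 (show 2 ≤ n by omega)).trans (hn ▸ (R : Subgroup C).card_subgroup_dvd_card)))
    refine eq_of_le_of_card_ge hle ?_
    rw [h1, hn]
    exact (Nat.pow_le_pow_right (by norm_num) hn1)
  obtain ⟨g, hg⟩ := MulAction.exists_smul_eq C P Q
  have h1 : g * ⟨x, hx⟩ * g⁻¹ ∈ zpowers (⟨y, hy⟩ : C) := by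
    rw [cP Q ⟨y, hy⟩ y3 hQ, ← hg, Sylow.coe_subgroup_smul]
    exact smul_mem_pointwise_smul (⟨x, hx⟩ : C) (MulAut.conj g) (P : Subgroup C) (hP (mem_zpowers _))
  have h2 : (g : G) * x * (g : G)⁻¹ ∈ zpowers y := by
    obtain ⟨k, hk⟩ := mem_zpowers_iff.1 h1
    exact mem_zpowers_iff.2 ⟨k, by simpa using congrArg Subtype.val hk⟩
  have hc : IsConj x ((g : G) * x * (g : G)⁻¹) := isConj_iff.2 ⟨g, rfl⟩
  rw [card_cent_conj hc]
  rcases mem_zp3 (by rw [← y3]; exact pow_orderOf_eq_one y) h2 with h | h | h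
  · exfalso
    have : x = 1 := by
      calc x = (g : G)⁻¹ * ((g : G) * x * (g : G)⁻¹) * g := by group
        _ = 1 := by rw [h]; simp
    rw [this, orderOf_one] at x3; omega
  · rw [h]
  · rw [h, cent_inv]

/-- an involution centralises no subgroup of order 9 -/
theorem set_no9 (P : Sylow 3 G) (hcard : Nat.card (P : Subgroup G) = 9)
    (hC : centralizer ((P : Subgroup G) : Set G) = P) {t : G} (tt : t * t = 1) (t1 : t ≠ 1) :
    ¬ 9 ∣ Nat.card (centralizer ({t} : Set G)) := by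
  have : Fact (Nat.Prime 3) := ⟨Nat.prime_three⟩
  intro h
  obtain ⟨H, hH⟩ := Sylow.exists_subgroup_card_pow_prime (G := centralizer ({t} : Set G)) 3 (n := 2) h
  set H' := H.map (centralizer ({t} : Set G)).subtype with hH'
  have cH : Nat.card H' = 9 := by rw [hH', card_map_of_injective (subtype_injective _), hH]; rfl
  obtain ⟨Q, hQ⟩ := (IsPGroup.of_card (p := 3) (n := 2) (G := H') cH).exists_le_sylow
  obtain ⟨g, hg⟩ := MulAction.exists_smul_eq G P Q
  have cQ : Nat.card (Q : Subgroup G) = 9 := by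
    rw [← hcard]; exact Nat.card_congr (Sylow.equiv Q P).toEquiv
  have e : H' = Q := eq_of_le_of_card_ge hQ (by rw [cH, cQ])
  have hm : g⁻¹ * t * g ∈ centralizer ((P : Subgroup G) : Set G) := by
    rw [mem_centralizer_iff]
    intro x hx
    have h1 : g * x * g⁻¹ ∈ (Q : Subgroup G) := by
      rw [← hg, Sylow.coe_subgroup_smul]
      exact smul_mem_pointwise_smul x (MulAut.conj g) (P : Subgroup G) hx
    rw [← e] at h1
    obtain ⟨c, -, hc⟩ := h1
    have h2 := mem_centralizer_singleton_iff.1 c.2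
    have hc' : (c : G) = g * x * g⁻¹ := hc
    rw [hc'] at h2
    calc x * (g⁻¹ * t * g) = g⁻¹ * (g * x * g⁻¹ * t) * g := by group
      _ = _ := by rw [h2]; group
  rw [hC] at hm
  have h9 : (g⁻¹ * t * g) ^ 9 = 1 := by
    have := pow_card_eq_one' (G := (P : Subgroup G)) (x := ⟨_, hm⟩)
    rw [hcard] at this
    exact congrArg Subtype.val this
  have h2 : (g⁻¹ * t * g) ^ 2 = 1 := by
    calc (g⁻¹ * t * g) ^ 2 = g⁻¹ * (t * t) * g := by rw [pow_two]; group
      _ = 1 := by rw [tt]; simp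
  have h1 : g⁻¹ * t * g = 1 := by
    rw [show 9 = 2 * 4 + 1 from rfl, pow_succ, pow_mul, h2, one_pow, one_mul] at h9; exact h9
  apply t1
  calc t = g * (g⁻¹ * t * g) * g⁻¹ := by group
    _ = 1 := by rw [h1]; simp

theorem setup (h1 : S1.{u}) (h2 : S2.{u})
    (P : Sylow 3 G) (D : Subgroup G) (hDP : D = P) (y z : G) (hgen : Subgroup.closure {y, z} = D)
    (hcomm : IsMulCommutative D) (hcard : Nat.card D = 9) (hexp : ∀ a ∈ D, a ^ 3 = 1)
    (hC : Subgroup.centralizer (D : Set G) = D)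
    (eN : Subgroup.normalizer (D : Set G) ⧸ D.subgroupOf (Subgroup.normalizer (D : Set G)) ≃* DihedralGroup 4)
    (hyn : (D.subgroupOf (Subgroup.centralizer ({y} : Set G))).Normal)
    (hycard : Nat.card (Subgroup.centralizer ({y} : Set G)) = 18)
    (eC : Subgroup.centralizer ({z} : Set G) ≃* Multiplicative (ZMod 3) × alternatingGroup (Fin 5))
    (eL : Subgroup.normalizer (Subgroup.zpowers z : Set G) ≃* Y0) : Nonempty (Setup G) := by
  have : Fact (Nat.Prime 3) := ⟨Nat.prime_three⟩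
  have hyD : y ∈ D := hgen ▸ subset_closure (by simp)
  have hzD : z ∈ D := hgen ▸ subset_closure (by simp)
  have ncyc : ∀ w ∈ D, ¬ D ≤ zpowers w := by
    intro w hw hle
    have a1 := card_dvd_of_le hle
    rw [hcard, Nat.card_zpowers] at a1
    have := Nat.le_of_dvd (by norm_num) (a1.trans (orderOf_dvd_of_pow_eq_one (hexp w hw)))
    omega
  have hyz : y ∉ zpowers z := fun h => ncyc z hzD (by
    rw [← hgen, closure_le]; rintro x (rfl | rfl)
    · exact h
    · exact mem_zpowers _)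
  have z1 : z ≠ 1 := fun h => ncyc y hyD (by
    rw [← hgen, closure_le]; rintro x (rfl | rfl)
    · exact mem_zpowers _
    · rw [h]; exact one_mem _)
  have z3 : orderOf z = 3 := orderOf_eq_prime (hexp z hzD) z1
  obtain ⟨ψ, ψi, ψr, hz, hD⟩ := h1 G D z z3 hzD hcomm hcard ⟨eL⟩
  obtain ⟨s, ss, st, sa⟩ := h2 G D ψ ψi hD ⟨eN⟩
  have si : s⁻¹ = s := inv_eq_of_mul_eq_one_right ss
  have sw : ∀ x w : G, s * x * s = w → s * w * s = x := fun x w h => by
    rw [← h]
    calc s * (s * x * s) * s = (s * s) * x * (s * s) := by group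
      _ = x := by rw [ss]; simp
  have a1 : ψ ya ≠ 1 := fun h => y_a1 (ψi (by rw [h, map_one]))
  have ha3 : ψ ya ^ 3 = 1 := by rw [← map_pow, y_a3, map_one]
  have hb3 : ψ yb ^ 3 = 1 := by rw [← map_pow, y_b3, map_one]
  have hab : Commute (ψ ya) (ψ yb) := by
    show _ = _; rw [← map_mul, ← map_mul, y_ab]
  have cz : Nat.card (centralizer ({z} : Set G)) = 180 := by
    rw [Nat.card_congr eC.toEquiv, Nat.card_prod, nat_card_alternatingGroup]
    simp [Nat.factorial]
  have ca : Nat.card (centralizer ({ψ ya} : Set G)) = 180 := by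
    rcases mem_zp3 (hexp z hzD) (hz ▸ mem_zpowers (ψ ya)) with h | h | h
    · exact absurd h a1
    · rw [h, cz]
    · rw [h, cent_inv, cz]
  have cb : Nat.card (centralizer ({ψ yb} : Set G)) = 180 := by
    rw [← ca]; exact (card_cent_conj (isConj_iff.2 ⟨s, by rw [si, sa]⟩)).symm
  have hya : y ∉ zpowers (ψ ya) := hz ▸ hyz
  have hyb : y ∉ zpowers (ψ yb) := fun h => by
    rcases mem_zp3 hb3 h with h | h | h
    · exact hyz (h ▸ one_mem _)
    · rw [h, cb] at hycard; omega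
    · rw [h, cent_inv, cb] at hycard; omega
  obtain ⟨g, hg, hgy⟩ := ytype ψ (hD ▸ hyD) hya hyb
  have hCy : centralizer ({y} : Set G) ≤ normalizer (D : Set G) := by
    refine (normal_subgroupOf_iff_le_normalizer ?_).1 hyn
    intro x hx
    rw [mem_centralizer_singleton_iff]
    exact congrArg Subtype.val (hcomm.is_comm.comm (⟨x, hx⟩ : D) ⟨y, hyD⟩)
  have cab : Nat.card (centralizer ({ψ ya * ψ yb} : Set G)) = 18 := by
    rw [← hycard]; exact card_cent_conj (isConj_iff.2 ⟨g, hgy⟩)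
  have hP9 : Nat.card (P : Subgroup G) = 9 := hDP ▸ hcard
  refine ⟨⟨ψ, (MulAut.conj s).toMonoidHom.comp ψ, ψi, (MulAut.conj s).injective.comp ψi, ψr, ?_, ?_, ?_, ?_, ?_,
    ?_, ?_, ?_, ?_, s, ss, st, ?_⟩⟩
  · rw [MonoidHom.range_comp, ψr, map_equiv_normalizer_eq, MonoidHom.map_zpowers]; rfl
  · show s * ψ ya * s⁻¹ = _
    rw [si, sa]
  · show s * ψ yb * s⁻¹ = _
    rw [si, sw _ _ sa]
  · show s * ψ yt * s⁻¹ = _
    rw [si, st]
  · show s * ψ yt' * s⁻¹ = _
    rw [si, sw _ _ st]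
  · intro h
    have h3 := (P : Subgroup G).card_mul_index
    rw [hP9] at h3
    apply P.not_dvd_index
    rw [← h3] at h
    exact Nat.dvd_of_mul_dvd_mul_left (show 0 < 9 by norm_num) h
  · rw [← centralizer_closure, hD, hC]
  · rw [hD]
    show Nat.card (normalizer (D : Set G)) = 72
    rw [card_eq_card_quotient_mul_card_subgroup (D.subgroupOf (normalizer (D : Set G))),
      Nat.card_congr eN.toEquiv, Nat.card_congr (subgroupOfEquivOfLe le_normalizer).toEquiv, hcard,
      DihedralGroup.nat_card]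
  · intro d hd n1 n2 c hc
    obtain ⟨g', hg', hd'⟩ := ytype ψ hd n1 n2
    rw [hD] at hg hg' ⊢
    show c ∈ normalizer (D : Set G)
    have hc' := mem_centralizer_singleton_iff.1 hc
    have : g * g'⁻¹ * c * (g * g'⁻¹)⁻¹ ∈ centralizer ({y} : Set G) := by
      rw [mem_centralizer_singleton_iff, ← hgy]
      rw [← hd'] at hc'
      calc g * g'⁻¹ * c * (g * g'⁻¹)⁻¹ * (g * (ψ ya * ψ yb) * g⁻¹)
          = g * g'⁻¹ * (c * (g' * (ψ ya * ψ yb) * g'⁻¹)) * (g * g'⁻¹)⁻¹ := by group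
        _ = _ := by rw [hc']; group
    have h4 := hCy this
    have h5 := mul_mem hg (inv_mem hg')
    have h6 := mul_mem (mul_mem (inv_mem h5) h4) h5
    convert h6 using 1; group
  · intro hcj
    obtain ⟨k, hk⟩ := isConj_iff.1 hcj
    have t1 : ψ yt ≠ 1 := fun h => y_t1 (ψi (by rw [h, map_one]))
    have n9 := set_no9 P hP9 (hDP ▸ hC) (t := ψ yt) (by rw [← map_mul, y_tt, map_one]) t1
    have sab : s * (ψ ya * ψ yb) = ψ ya * ψ yb * s := by
      calc s * (ψ ya * ψ yb) = (s * ψ ya * s) * (s * ψ yb * s) * s := by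
            calc s * (ψ ya * ψ yb) = s * ψ ya * 1 * ψ yb * 1 := by group
              _ = _ := by rw [← ss]; group
        _ = _ := by rw [sa, sw _ _ sa, hab.eq]
    have ab1 : ψ ya * ψ yb ≠ 1 := fun h => by
      rw [h] at cab
      have e : centralizer ({1} : Set G) = ⊤ := by
        rw [eq_top_iff]; intro x _; rw [mem_centralizer_singleton_iff]; simp
      rw [e, card_top] at cab
      have := (centralizer ({ψ ya} : Set G)).card_subgroup_dvd_card
      rw [ca, cab] at this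
      omega
    have o1 : orderOf (ψ ya * ψ yb) = 3 := orderOf_eq_prime (by rw [hab.mul_pow, ha3, hb3, one_mul]) ab1
    have := set_cent_eq (centralizer ({ψ yt} : Set G)) n9 (x := ψ ya) (y := k * (ψ ya * ψ yb) * k⁻¹)
      (by rw [mem_centralizer_singleton_iff, ← map_mul, ← map_mul, y_ta])
      (by rw [mem_centralizer_singleton_iff, ← hk]
          calc k * (ψ ya * ψ yb) * k⁻¹ * (k * s * k⁻¹) = k * (ψ ya * ψ yb * s) * k⁻¹ := by group
            _ = _ := by rw [← sab]; group)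
      (orderOf_eq_prime ha3 a1)
      (((MulAut.conj k).orderOf_eq _).trans o1)
    rw [ca, ← card_cent_conj (isConj_iff.2 ⟨k, rfl⟩), cab] at this
    omega

end

end Cfsg.Agent.A8R
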